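import Cfsg.Agent.L0.KTr

/-! Degrees of a large abelian subgroup on sections of a normal subgroup. -/

set_option autoImplicit false
set_option linter.unusedSectionVars false
universe u
open Subgroup Cfsg Cfsg.L0 Cfsg.H8
open scoped commutatorElement

namespace Cfsg.JTr

variable {G : Type u} [Group G] {p : ℕ}

/-- All commutators of length `j` with elements of `𝓐` lie in `Y`. -/
def Ht (𝓐 : Set G) (Y : Subgroup G) : ℕ → G → Prop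
  | 0, u => u ∈ Y
  | j + 1, u => ∀ a ∈ 𝓐, Ht 𝓐 Y j ⁅a, u⁆

section
variable {𝓐 𝓑 : Set G} {Y Y' E : Subgroup G}

theorem Ht.anti (h : 𝓑 ⊆ 𝓐) (h' : Y ≤ Y') : ∀ {j : ℕ} {u : G}, Ht 𝓐 Y j u → Ht 𝓑 Y' j u
  | 0, _, k => h' k
  | _ + 1, _, k => fun a ha => Ht.anti h h' (k a (h ha))

theorem Ht.succ (hY : ∀ a ∈ 𝓐, a ∈ normalizer (Y : Set G)) :
    ∀ {j : ℕ} {u : G}, Ht 𝓐 Y j u → Ht 𝓐 Y (j + 1) u
  | 0, _, k => fun a ha => commutatorElement_mem_of_normalizer (hY a ha) k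
  | _ + 1, _, k => fun a ha => Ht.succ hY (k a ha)

theorem Ht.mono (hY : ∀ a ∈ 𝓐, a ∈ normalizer (Y : Set G)) {i j : ℕ} {u : G} (h : i ≤ j)
    (k : Ht 𝓐 Y i u) : Ht 𝓐 Y j u := by
  induction h with
  | refl => exact k
  | step _ ih => exact ih.succ hY

theorem Ht.of_mem (hY : ∀ a ∈ 𝓐, a ∈ normalizer (Y : Set G)) {u : G} (k : u ∈ Y) (j : ℕ) :
    Ht 𝓐 Y j u := Ht.mono hY (Nat.zero_le j) k

theorem Ht.mul (hY : ∀ a ∈ 𝓐, a ∈ normalizer (Y : Set G))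
    (hE : ∀ a ∈ 𝓐, a ∈ normalizer (E : Set G)) (hle : Y ≤ E) (hc : ⁅E, E⁆ ≤ Y) :
    ∀ {j : ℕ} {u v : G}, u ∈ E → v ∈ E → Ht 𝓐 Y j u → Ht 𝓐 Y j v → Ht 𝓐 Y j (u * v)
  | 0, _, _, _, _, k, l => Y.mul_mem k l
  | j + 1, u, v, hu, hv, k, l => fun a ha => by
    have h1 := commutatorElement_mem_of_normalizer (hE a ha) hu
    have h2 := commutatorElement_mem_of_normalizer (hE a ha) hv
    have h3 := hc (commutator_mem_commutator hu h2)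
    have e : ⁅a, u * v⁆ = ⁅a, u⁆ * (⁅u, ⁅a, v⁆⁆ * ⁅a, v⁆) := by
      simp only [commutatorElement_def]; group
    rw [e]
    exact Ht.mul hY hE hle hc h1 (E.mul_mem (hle h3) h2) (k a ha)
      (Ht.mul hY hE hle hc (hle h3) h2 (Ht.of_mem hY h3 j) (l a ha))

theorem Ht.conj {g : G} (hg : ∀ a ∈ 𝓐, a * g = g * a) (hY : g ∈ normalizer (Y : Set G)) :
    ∀ {j : ℕ} {u : G}, Ht 𝓐 Y j u → Ht 𝓐 Y j (g * u * g⁻¹)
  | 0, _, k => conj_mem_of_mem_normalizer hY k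
  | j + 1, u, k => fun a ha => by
    have e : ⁅a, g * u * g⁻¹⁆ = g * ⁅a, u⁆ * g⁻¹ := by
      rw [conjugate_commutatorElement, ← hg a ha, mul_inv_cancel_right]
    rw [e]
    exact Ht.conj hg hY (k a ha)

theorem ht_ic {a : G} (ha : a ∈ 𝓐) : ∀ {j k : ℕ} {u : G}, Ht 𝓐 Y (j + k) u → Ht 𝓐 Y j (ic a k u)
  | _, 0, _, h => h
  | _, k + 1, _, h => ht_ic ha (k := k) (h a ha)

theorem ht_single {a : G} : ∀ {k : ℕ} {u : G}, ic a k u ∈ Y → Ht {a} Y k u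
  | 0, _, h => h
  | k + 1, _, h => fun b hb => by rw [Set.mem_singleton_iff.1 hb]; exact ht_single (k := k) h

theorem Ht.down {W : Subgroup G} (hW : ∀ a ∈ 𝓐, a ∈ normalizer (W : Set G)) {m : ℕ}
    (h : ∀ w ∈ W, Ht 𝓐 Y (m + 1) w → Ht 𝓐 Y m w) :
    ∀ (k : ℕ), ∀ w ∈ W, Ht 𝓐 Y (m + k) w → Ht 𝓐 Y m w
  | 0, _, _, l => l
  | k + 1, w, hw, l => h w hw fun a ha =>
    Ht.down hW h k _ (commutatorElement_mem_of_normalizer (hW a ha) hw) (l a ha)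

theorem ht_of_iter {S W : Subgroup G} (h : ∀ a ∈ 𝓐, a ∈ S) {n : ℕ}
    (hn : iterCommutator W S n = ⊥) :
    ∀ (k i : ℕ) (u : G), i + k = n → u ∈ iterCommutator W S i → Ht 𝓐 Y k u
  | 0, i, u, e, hu => by
    rw [add_zero] at e
    rw [e, hn, mem_bot] at hu
    rw [hu]; exact Y.one_mem
  | k + 1, i, _, e, hu => fun a ha => ht_of_iter h hn k (i + 1) _ (by omega)
    (H7.commutator_mem_commutator' hu (h a ha))

/-- The subgroup of elements of height at most `j`. -/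
def htSub [Finite G] (hY : ∀ a ∈ 𝓐, a ∈ normalizer (Y : Set G))
    (hE : ∀ a ∈ 𝓐, a ∈ normalizer (E : Set G)) (hle : Y ≤ E) (hc : ⁅E, E⁆ ≤ Y) (j : ℕ) :
    Subgroup G :=
  mkSub {u | u ∈ E ∧ Ht 𝓐 Y j u} ⟨E.one_mem, Ht.of_mem hY Y.one_mem j⟩
    fun _ h _ k => ⟨E.mul_mem h.1 k.1, Ht.mul hY hE hle hc h.1 k.1 h.2 k.2⟩

end

/-- The data of a commutator pairing. -/
structure Pair (𝓐 : Set G) (P P0 Q E1 E2 : Subgroup G) : Prop where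
  cm : ∀ a ∈ 𝓐, ∀ b ∈ 𝓐, a * b = b * a
  nP : ∀ a ∈ 𝓐, a ∈ normalizer (P : Set G)
  nP0 : ∀ a ∈ 𝓐, a ∈ normalizer (P0 : Set G)
  nQ : ∀ a ∈ 𝓐, a ∈ normalizer (Q : Set G)
  n1 : ∀ a ∈ 𝓐, a ∈ normalizer (E1 : Set G)
  n2 : ∀ a ∈ 𝓐, a ∈ normalizer (E2 : Set G)
  le : E2 ≤ E1
  ab : ⁅E1, E1⁆ ≤ E2
  pq : ⁅P, Q⁆ ≤ E1
  ep : ∀ e ∈ E1, ∀ x ∈ P, ⁅x, e⁆ ∈ E2
  eq : ∀ e ∈ E1, ∀ x ∈ Q, ⁅x, e⁆ ∈ E2
  p0 : ⁅P0, Q⁆ ≤ E2

/-- Depth with respect to a pairing. -/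
def Dp (𝓐 : Set G) (P P0 Q E2 : Subgroup G) (α k : ℕ) (v : G) : Prop :=
  v ∈ Q ∧ ∀ j, ∀ u ∈ P, Ht 𝓐 P0 j u → Ht 𝓐 E2 (j + α - 1 - k) ⁅u, v⁆

namespace Pair

variable [Finite G] {𝓐 : Set G} {P P0 Q E1 E2 : Subgroup G} (h : Pair 𝓐 P P0 Q E1 E2) {α : ℕ}
include h

theorem dp0 (hα : ∀ e ∈ E1, Ht 𝓐 E2 α e) {v : G} (hv : v ∈ Q) : Dp 𝓐 P P0 Q E2 α 0 v := by
  refine ⟨hv, fun j u hu k => ?_⟩
  rcases j with _ | j
  · exact Ht.of_mem h.n2 (h.p0 (commutator_mem_commutator k hv)) _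
  · exact Ht.mono h.n2 (by omega) (hα _ (h.pq (commutator_mem_commutator hu hv)))

theorem step {k : ℕ} {v a : G} (hv : Dp 𝓐 P P0 Q E2 α k v) (ha : a ∈ 𝓐) :
    Dp 𝓐 P P0 Q E2 α (k + 1) ⁅a, v⁆ := by
  have hc := commutatorElement_mem_of_normalizer (h.nQ a ha) hv.1
  refine ⟨hc, fun j u hu l => ?_⟩
  rcases j with _ | j
  · exact Ht.of_mem h.n2 (h.p0 (commutator_mem_commutator l hc)) _
  have l1 : Ht 𝓐 P0 (j + 1) (a⁻¹ * u * a⁻¹⁻¹) := l.conj (fun b hb => by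
    rw [eq_inv_mul_iff_mul_eq, ← mul_assoc, ← h.cm b hb a ha, mul_inv_cancel_right])
    (inv_mem (h.nP0 a ha))
  have hu' : a⁻¹ * u * a⁻¹⁻¹ ∈ P := conj_mem_of_mem_normalizer (inv_mem (h.nP a ha)) hu
  obtain ⟨u, rfl⟩ : ∃ u', u = a * u' * a⁻¹ := ⟨a⁻¹ * u * a, by group⟩
  rw [show a⁻¹ * (a * u * a⁻¹) * a⁻¹⁻¹ = u by group] at l1 hu'
  have hb := commutatorElement_mem_of_normalizer (h.nP a ha) hu'
  have hy := h.pq (commutator_mem_commutator hu' hv.1)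
  have ht := h.pq (commutator_mem_commutator hb hv.1)
  let K := htSub h.n2 h.n1 h.le h.ab (j + 1 + α - 1 - (k + 1))
  have k0 : ∀ e ∈ E2, e ∈ K := fun e he => ⟨h.le he, Ht.of_mem h.n2 he _⟩
  have k1 : ⁅a, ⁅u, v⁆⁆ ∈ K := ⟨commutatorElement_mem_of_normalizer (h.n1 a ha) hy,
    Ht.mono h.n2 (j := j + 1 + α - 1 - (k + 1) + 1) (by omega) (hv.2 _ u hu' l1) a ha⟩
  have k2 : ⁅⁅a, u⁆, v⁆ ∈ K := ⟨ht, Ht.mono h.n2 (by omega) (hv.2 _ _ hb (l1 a ha))⟩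
  have k3 : ∀ x e, e ∈ K → ⁅x, e⁆ ∈ E2 → x * e * x⁻¹ ∈ K := fun x e he hx => by
    have := K.mul_mem (k0 _ hx) he
    rwa [commutatorElement_def, inv_mul_cancel_right] at this
  have k4 := k3 _ _ (K.inv_mem k2) (h.eq _ (E1.inv_mem ht) _ hc)
  have k5 := k3 _ _ k4 (h.ab (commutator_mem_commutator hy k4.1))
  have k6 := K.inv_mem (k0 _ (h.ep _ hy _ hb))
  have k7 := k3 _ _ k6 (h.eq _ k6.1 _ hc)
  have k8 := K.inv_mem (k0 _ (h.eq _ hy _ hc))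
  have := K.mul_mem (K.mul_mem k1 k5) (K.mul_mem k8 k7)
  have e : ⁅a * u * a⁻¹, ⁅a, v⁆⁆ = ⁅a, ⁅u, v⁆⁆ * (⁅u, v⁆ * (⁅a, v⁆ * ⁅⁅a, u⁆, v⁆⁻¹ * ⁅a, v⁆⁻¹) *
      ⁅u, v⁆⁻¹) * (⁅⁅a, v⁆, ⁅u, v⁆⁆⁻¹ * (⁅a, v⁆ * ⁅⁅a, u⁆, ⁅u, v⁆⁆⁻¹ * ⁅a, v⁆⁻¹)) := by
    simp only [commutatorElement_def]; group
  rw [e]
  exact this.2

theorem deg {β : ℕ} (hβ : ∀ u ∈ P, Ht 𝓐 P0 β u) {Y : Subgroup G}
    (hY : ∀ v ∈ Q, (∀ u ∈ P, ⁅u, v⁆ ∈ E2) → v ∈ Y) :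
    ∀ (n k : ℕ) (v : G), β + α - 1 ≤ n + k → Dp 𝓐 P P0 Q E2 α k v → Ht 𝓐 Y n v
  | 0, k, v, e, l => hY v l.1 fun u hu => by
    have := l.2 β u hu (hβ u hu)
    rwa [show β + α - 1 - k = 0 by omega] at this
  | n + 1, k, _, e, l => fun a ha => deg hβ hY n (k + 1) _ (by omega) (h.step l ha)

end Pair

variable [Finite G]

theorem comm_swap {M : Subgroup G} (hM : M ≤ centralizer (M : Set G)) {a c x : G}
    (h : a * c = c * a) (ha : ⁅a, x⁆ ∈ M) (hc : ⁅c, x⁆ ∈ M) : ⁅c, ⁅a, x⁆⁆ = ⁅a, ⁅c, x⁆⁆ := by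
  have e1 : ⁅c, ⁅a, x⁆⁆ = ⁅c * a, x⁆ * (⁅c, x⁆⁻¹ * ⁅a, x⁆⁻¹) := by
    simp only [commutatorElement_def]; group
  have e2 : ⁅a, ⁅c, x⁆⁆ = ⁅a * c, x⁆ * (⁅a, x⁆⁻¹ * ⁅c, x⁆⁻¹) := by
    simp only [commutatorElement_def]; group
  rw [e1, e2, h, hM (M.inv_mem ha) _ (M.inv_mem hc)]

theorem cent_cm_iff {A : Subgroup G} (hA : A ≤ centralizer (A : Set G)) {y c : G}
    (hM : cm A y ≤ centralizer (cm A y : Set G)) (hc : c ∈ A) :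
    c ∈ centralizer (cm A y : Set G) ↔ ⁅c, y⁆ ∈ centralizer (A : Set G) := by
  have e : ∀ a ∈ A, ⁅c, ⁅a, y⁆⁆ = ⁅a, ⁅c, y⁆⁆ := fun a ha =>
    comm_swap hM (hA hc a ha) (mem_cm ha y) (mem_cm hc y)
  constructor
  · intro k a ha
    rw [← commutatorElement_eq_one_iff_mul_comm, ← e a ha, commutatorElement_eq_one_iff_mul_comm]
    exact (k _ (mem_cm ha y)).symm
  · intro k
    refine mem_centralizer_iff.2 fun m hm => mem_centralizer_singleton_iff.1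
      ((cm_le_iff.2 fun a ha => ?_ : cm A y ≤ centralizer ({c} : Set G)) hm)
    rw [mem_centralizer_singleton_iff, eq_comm, ← commutatorElement_eq_one_iff_mul_comm, e a ha,
      commutatorElement_eq_one_iff_mul_comm]
    exact k a ha

/-- The standing hypotheses on a large abelian subgroup. -/
structure Big (p : ℕ) (S T A : Subgroup G) : Prop where
  ab : MaxAb 0 S A
  pS : IsPGroup p S
  le : T ≤ S
  n : S ≤ normalizer (T : Set G)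
  nle : ¬ A ≤ T
  max : ∀ A', MaxAb 0 S A' → ¬ A' ≤ T → Nat.card ↥(A' ⊓ T) ≤ Nat.card ↥(A ⊓ T)

theorem exists_big {S T : Subgroup G} (hS : IsPGroup p S) (hT : T ≤ S)
    (hn : S ≤ normalizer (T : Set G)) (hJ : ¬ JT 0 S ≤ T) : ∃ A, Big p S T A := by
  rw [JT_le_iff] at hJ
  push Not at hJ
  obtain ⟨A, h1, h2⟩ := Set.exists_max_image {A | MaxAb 0 S A ∧ ¬ A ≤ T}
    (fun A => Nat.card ↥(A ⊓ T)) (Set.toFinite _) hJ
  exact ⟨A, h1.1, hS, hT, hn, h1.2, fun A' k1 k2 => h2 A' ⟨k1, k2⟩⟩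

namespace Big

variable [hp : Fact p.Prime] {S T A : Subgroup G} (h : Big p S T A)
include h

theorem cover {y : G} (hy : y ∈ T) (hM : cm A y ≤ centralizer (cm A y : Set G))
    (k : ¬ A ⊓ centralizer (cm A y : Set G) ≤ T) {a : G} (ha : a ∈ A) :
    ∃ a0 ∈ A ⊓ T, ∃ b ∈ A ⊓ centralizer (cm A y : Set G), a0 * b = a := by
  set U := cm A y
  set B := A ⊓ centralizer (U : Set G)
  have hE := (h.ab.thompson (h.le hy) hM).1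
  have hU : U ≤ T := cm_le_iff.2 fun b hb =>
    commutatorElement_mem_of_normalizer (h.n (h.ab.le hb)) hy
  have hB : B ≤ normalizer (T : Set G) := inf_le_left.trans (h.ab.le.trans h.n)
  have e1 := H8.card_sup_mul_card_inf (hE.le.trans h.n)
  have e2 := H8.card_sup_mul_card_inf (h.ab.le.trans h.n)
  have e3 := h.max _ hE fun e => k (le_sup_right.trans e)
  have e4 : U ⊔ B ⊔ T = B ⊔ T := le_antisymm (sup_le (sup_le (le_sup_of_le_right hU) le_sup_left)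
    le_sup_right) (sup_le_sup_right le_sup_right T)
  rw [e4, hE.card_eq h.ab, ← e2] at e1
  have e5 : Nat.card ↥(A ⊔ T) ≤ Nat.card ↥(B ⊔ T) := by
    refine Nat.le_of_mul_le_mul_right ?_ (Nat.card_pos (α := ↥(A ⊓ T)))
    rw [← e1]; exact Nat.mul_le_mul_left _ e3
  have e6 := H7.eq_of_le_of_card_le (sup_le_sup_right (inf_le_left : B ≤ A) T) e5
  obtain ⟨t, ht, b, hb, e⟩ := (mem_sup_of_le_normalizer_left hB).1
    (sup_comm B T ▸ e6.ge (mem_sup_left ha))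
  exact ⟨t, ⟨by simpa [← e] using A.mul_mem ha (A.inv_mem hb.1), ht⟩, b, hb, e⟩

/-- The degree on a section below an abelian commutator subgroup is at most three. -/
theorem three {x : G} (hx : x ∈ T) (hM : cm A x ≤ centralizer (cm A x : Set G)) {Y : Subgroup G}
    (hY : A ≤ normalizer (Y : Set G)) (h1 : ∀ c ∈ A ⊓ T, ⁅c, x⁆ ∈ Y)
    (h2 : ∀ c ∈ A ⊓ T, ∀ m ∈ cm A x, ⁅c, m⁆ ∈ Y) : Ht A Y 3 x := by
  set M := cm A x with hMdef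
  have nM := le_normalizer_cm A x
  have hMT : M ≤ T := cm_le_iff.2 fun b hb =>
    commutatorElement_mem_of_normalizer (h.n (h.ab.le hb)) hx
  have hcm : ∀ {a m : G}, a ∈ A → m ∈ M → ⁅a, m⁆ ∈ M := fun ha hm =>
    commutatorElement_mem_of_normalizer (nM ha) hm
  by_cases k0 : A ⊓ centralizer (M : Set G) ≤ T
  swap
  · refine fun c hc => Ht.succ (fun a ha => hY ha) fun a ha => ?_
    obtain ⟨a0, l1, b, l2, rfl⟩ := h.cover hx hM k0 ha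
    have e : ⁅a0 * b, ⁅c, x⁆⁆ = a0 * ⁅b, ⁅c, x⁆⁆ * a0⁻¹ * ⁅a0, ⁅c, x⁆⁆ := by
      simp only [commutatorElement_def]; group
    change ⁅a0 * b, ⁅c, x⁆⁆ ∈ Y
    rw [e, commutatorElement_eq_one_iff_mul_comm.2 (l2.2 _ (mem_cm hc x)).symm]
    simpa using h2 a0 l1 _ (mem_cm hc x)
  let Gd : G → (G → G) → Prop := fun y ρ => y ∈ T ∧ (∀ m ∈ M, ρ m ∈ M) ∧
    (∀ m ∈ M, ∀ m' ∈ M, ρ (m * m') = ρ m * ρ m') ∧ (∀ c ∈ A, ∀ m ∈ M, ρ ⁅c, m⁆ = ⁅c, ρ m⁆) ∧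
      ∀ c ∈ A, ⁅c, y⁆ = ρ ⁅c, x⁆
  have g1 : ∀ {y ρ}, Gd y ρ → cm A y ≤ M := fun g => cm_le_iff.2 fun c hc => by
    rw [g.2.2.2.2 c hc]; exact g.2.1 _ (mem_cm hc x)
  have g2 : ∀ {y ρ}, Gd y ρ → cm A y ≤ centralizer (cm A y : Set G) := fun g =>
    (g1 g).trans (hM.trans (H7.centralizer_anti (g1 g)))
  have g3 : ∀ {y ρ a}, Gd y ρ → a ∈ A → Gd ⁅a, y⁆ fun m => ⁅a, ρ m⁆ := fun {y ρ a} g ha => by
    refine ⟨hMT (g1 g (mem_cm ha y)), fun m hm => hcm ha (g.2.1 m hm), fun m hm m' hm' => ?_,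
      fun c hc m hm => ?_, fun c hc => ?_⟩
    · beta_reduce
      rw [g.2.2.1 m hm m' hm',
        commutatorElement_mul_right_of_commute (hM (hcm ha (g.2.1 m' hm')) _ (g.2.1 m hm))]
    · beta_reduce
      rw [g.2.2.2.1 c hc m hm]
      exact comm_swap hM (h.ab.comm ha c hc) (hcm hc (g.2.1 m hm)) (hcm ha (g.2.1 m hm))
    · beta_reduce
      rw [← g.2.2.2.2 c hc]
      exact comm_swap hM (h.ab.comm hc a ha) (g1 g (mem_cm ha y)) (g1 g (mem_cm hc y))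
  obtain ⟨_, ⟨y, ρ, g, t0, rfl⟩, hmin⟩ := exists_min_card (P := fun U : Subgroup G => ∃ y ρ, Gd y ρ ∧
    A ⊓ centralizer (cm A y : Set G) ≤ T ∧ cm A y = U)
    ⟨_, x, id, ⟨hx, fun _ k => k, fun _ _ _ _ => rfl, fun _ _ _ _ => rfl, fun _ _ => rfl⟩, k0, rfl⟩
  have hb : cm A y ≠ ⊥ := fun e => h.nle (by rwa [e, H7.centralizer_bot', inf_top_eq] at t0)
  have hlt := commutator_lt_of_isPGroup (h.pS.to_le h.ab.le)
    (h.pS.to_le ((g1 g).trans (hMT.trans h.le))) (le_normalizer_cm A y) hb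
  have r1 : ρ 1 = 1 := by simpa using g.2.2.1 1 M.one_mem 1 M.one_mem
  intro a ha b hb e he
  have t1 : ¬ A ⊓ centralizer (cm A ⁅a, y⁆ : Set G) ≤ T := fun k =>
    (hmin _ ⟨_, _, g3 g ha, k, rfl⟩).not_gt (card_lt_of_lt (lt_of_le_of_lt (cm_le_iff.2 fun c hc =>
      H7.commutator_mem_commutator' (mem_cm ha y) hc) hlt))
  obtain ⟨b0, l1, b, l2, rfl⟩ := h.cover (g3 g ha).1 (g2 (g3 g ha)) t1 hb
  have m1 := mem_cm ha x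
  have m2 := hcm l2.1 m1
  obtain ⟨c, hc, k⟩ := (h.ab.thompson (h.le hx) hM).2 _ m2
  have m3 := M.mul_mem (M.inv_mem (mem_cm hc x)) m2
  set κ := ⁅c, x⁆⁻¹ * ⁅b, ⁅a, x⁆⁆ with hκ
  have e1 : ⁅b, ⁅a, x⁆⁆ = ⁅c, x⁆ * κ := by rw [hκ, mul_inv_cancel_left]
  have k1 : ρ κ ∈ centralizer (A : Set G) := fun d hd => by
    rw [← commutatorElement_eq_one_iff_mul_comm, ← g.2.2.2.1 d hd κ m3,
      commutatorElement_eq_one_iff_mul_comm.2 (k d hd), r1]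
  have k2 := (cent_cm_iff h.ab.comm (g2 (g3 g ha)) l2.1).1 l2.2
  rw [g.2.2.2.2 a ha, ← g.2.2.2.1 b l2.1 _ m1, e1, g.2.2.1 _ (mem_cm hc x) _ m3,
    ← g.2.2.2.2 c hc] at k2
  have k3 : c ∈ T := t0 ⟨hc, (cent_cm_iff h.ab.comm (g2 g) hc).2 (by
    simpa using mul_mem k2 (inv_mem k1))⟩
  have e2 : ⁅e, ⁅b0 * b, ⁅a, x⁆⁆⁆ = ⁅e, ⁅b0, ⁅b, ⁅a, x⁆⁆⁆ * ⁅c, x⁆ * (κ * ⁅b0, ⁅a, x⁆⁆ * κ⁻¹)⁆ *
      ((⁅b0, ⁅b, ⁅a, x⁆⁆⁆ * ⁅c, x⁆ * (κ * ⁅b0, ⁅a, x⁆⁆ * κ⁻¹)) * ⁅e, κ⁆ *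
        (⁅b0, ⁅b, ⁅a, x⁆⁆⁆ * ⁅c, x⁆ * (κ * ⁅b0, ⁅a, x⁆⁆ * κ⁻¹))⁻¹) := by
    simp only [hκ, commutatorElement_def]; group
  change ⁅e, ⁅b0 * b, ⁅a, x⁆⁆⁆ ∈ Y
  rw [e2, commutatorElement_eq_one_iff_mul_comm.2 (k e he), hM (hcm l1.1 m1) κ m3,
    mul_inv_cancel_right, mul_one, mul_inv_cancel, mul_one]
  exact commutatorElement_mem_of_normalizer (hY he)
    (Y.mul_mem (Y.mul_mem (h2 b0 l1 _ m2) (h1 c ⟨hc, k3⟩)) (h2 b0 l1 _ m1))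

theorem three' {X Y : Subgroup G} (hX : X ≤ T) (hc : X ≤ centralizer (X : Set G))
    (hn : A ≤ normalizer (X : Set G)) (hY : A ≤ normalizer (Y : Set G)) (hT : ⁅X, T⁆ ≤ Y)
    {x : G} (hx : x ∈ X) : Ht A Y 3 x := by
  have k : cm A x ≤ X := cm_le_iff.2 fun a ha => commutatorElement_mem_of_normalizer (hn ha) hx
  exact h.three (hX hx) (k.trans (hc.trans (H7.centralizer_anti k))) hY
    (fun c l => hT (H7.commutator_mem_commutator' hx l.2))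
    fun c l m hm => hT (H7.commutator_mem_commutator' (k hm) l.2)

end Big

end Cfsg.JTr
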