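import Cfsg.Agent.H7.J1

/-! The degree on a class two section. -/

set_option autoImplicit false
set_option linter.unusedSectionVars false
universe u
open Subgroup Cfsg Cfsg.L0 Cfsg.H8
open scoped commutatorElement

namespace Cfsg.JTr

variable {G : Type u} [Group G] [Finite G] {p : ℕ} [hp : Fact p.Prime]

/-- A class two section. -/
structure Sec (T A W Z : Subgroup G) : Prop where
  le : W ≤ T
  nW : A ≤ normalizer (W : Set G)
  nZ : A ≤ normalizer (Z : Set G)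
  zw : Z ≤ W
  zc : Z ≤ centralizer (W : Set G)
  ct : ⁅W, T⁆ ≤ Z

theorem cm_comm {A : Subgroup G} {x : G} (h : ∀ a ∈ A, ∀ b ∈ A, ⁅⁅a, x⁆, ⁅b, x⁆⁆ = 1) :
    cm A x ≤ centralizer (cm A x : Set G) :=
  cm_le_iff.2 fun a ha => le_centralizer_iff.1 (cm_le_iff.2 fun b hb _ hm => by
    rw [SetLike.mem_coe, mem_zpowers_iff] at hm
    obtain ⟨k, rfl⟩ := hm
    exact (Commute.zpow_left (commutatorElement_eq_one_iff_mul_comm.1 (h a ha b hb)) k))
    (mem_zpowers _)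

namespace Sec

variable {S T A W Z : Subgroup G} (s : Sec T A W Z)
include s

theorem ww : ⁅W, W⁆ ≤ T ⊓ centralizer (T : Set G) := by
  refine le_inf ((commutator_le_self W).trans s.le) (le_centralizer_iff.1
    (H7.le_centralizer_of_commutator_le_bot (H7.three_subgroups (le_normalizer_bot _)
      (le_normalizer_bot _) (le_normalizer_bot _) ?_ ?_)))
  · exact (commutator_mono s.ct le_rfl).trans
      (H7.commutator_le_of_le_centralizer (le_centralizer_iff.1 s.zc))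
  · rw [commutator_comm T]
    exact (commutator_mono s.ct le_rfl).trans
      (H7.commutator_le_of_le_centralizer (le_centralizer_iff.1 s.zc))

theorem wz : ⁅W, W⁆ ≤ Z := (commutator_mono le_rfl s.le).trans s.ct

theorem pair (hA : A ≤ centralizer (A : Set G)) : Pair A W Z W ⁅W, W⁆ ⊥ where
  cm := fun a ha b hb => hA hb a ha
  nP := fun _ ha => s.nW ha
  nP0 := fun _ ha => s.nZ ha
  nQ := fun _ ha => s.nW ha
  n1 := fun _ ha => H7.le_normalizer_commutator s.nW s.nW ha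
  n2 := fun _ ha => le_normalizer_bot A ha
  le := bot_le
  ab := H7.commutator_le_of_le_centralizer
    (s.wz.trans (s.zc.trans (H7.centralizer_anti (s.wz.trans s.zw))))
  pq := le_rfl
  ep := fun _ he x hx => commutatorElement_eq_one_iff_mul_comm.2 (s.zc (s.wz he) x hx)
  eq := fun _ he x hx => commutatorElement_eq_one_iff_mul_comm.2 (s.zc (s.wz he) x hx)
  p0 := H7.commutator_le_of_le_centralizer (le_centralizer_iff.1 s.zc)

theorem cw {a w : G} (ha : a ∈ A) (hw : w ∈ W) : ⁅a, w⁆ ∈ W :=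
  commutatorElement_mem_of_normalizer (s.nW ha) hw

variable (h : Big p S T A)
include h

theorem red {x : G} (hx : x ∈ W) (k : ∀ a ∈ A, ∀ b ∈ A, ⁅⁅a, x⁆, ⁅b, x⁆⁆ = 1) : Ht A Z 3 x :=
  h.three (s.le hx) (cm_comm k) s.nZ (fun _ l => s.ct (H7.commutator_mem_commutator' hx l.2))
    fun _ l _ hm => s.ct (H7.commutator_mem_commutator'
      ((cm_le_iff.2 fun _ ha => s.cw ha hx : cm A x ≤ W) hm) l.2)

theorem all {m : ℕ} (k : ∀ w ∈ W, Ht A Z (m + 1) w → Ht A Z m w) {w : G} (hw : w ∈ W) :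
    Ht A Z m w := by
  obtain ⟨n, hn⟩ := H9.exists_iterCommutator_eq_bot h.pS (s.le.trans h.le)
  exact Ht.down (fun _ ha => s.nW ha) k n w hw (Ht.mono (fun _ ha => s.nZ ha) (Nat.le_add_left n m)
    (ht_of_iter (fun _ ha => h.ab.le ha) hn n 0 w (zero_add n) hw))

theorem six {w : G} (hw : w ∈ W) : Ht A Z 6 w := by
  have q := s.pair h.ab.comm
  refine s.all h (m := 6) (fun w hw l a1 h1 a2 h2 a3 h3 => ?_) hw
  have hx := s.cw h3 (s.cw h2 (s.cw h1 hw))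
  refine s.red h hx fun a ha b hb => ?_
  exact (q.step (q.step (q.step (q.step (q.dp0 (α := 2) (fun e he a ha b hb =>
    commutatorElement_eq_one_iff_mul_comm.2 (h.ab.comm (h.ab.quad_center h.pS h.le h.n h.max
      (s.ww he) ha) b hb)) hw) h1) h2) h3) hb).2 3 _ (s.cw ha hx) (l a1 h1 a2 h2 a3 h3 a ha)

theorem four (hp2 : p ≠ 2) (hc : A ≤ centralizer ((⁅W, W⁆ : Subgroup G) : Set G)) {w : G}
    (hw : w ∈ W) : Ht A Z 4 w := by
  have q := s.pair h.ab.comm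
  have d0 : ∀ {w}, w ∈ W → Dp A W Z W ⊥ 1 0 w := fun hw => q.dp0 (α := 1) (fun e he a ha =>
    commutatorElement_eq_one_iff_mul_comm.2 (hc ha e he).symm) hw
  have five : ∀ w ∈ W, Ht A Z 6 w → Ht A Z 5 w := fun w hw l a1 h1 a2 h2 => by
    have hx := s.cw h2 (s.cw h1 hw)
    exact s.red h hx fun a ha b hb => (q.step (q.step (q.step (d0 hw) h1) h2) hb).2 3 _
      (s.cw ha hx) (l a1 h1 a2 h2 a ha)
  suffices k : ∀ w ∈ W, Ht A Z 5 w → Ht A Z 4 w from k w hw (five w hw (s.six h hw))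
  intro w hw l c h1
  have hx := s.cw h1 hw
  set x := ⁅c, w⁆
  have cz : ∀ {u v y : G}, u ∈ W → v ∈ W → y ∈ W → Commute y ⁅u, v⁆ := fun hu hv hy =>
    s.zc (s.wz (commutator_mem_commutator hu hv)) _ hy
  have key : ∀ a ∈ A, ∀ b ∈ A, ⁅x, ⁅a, ⁅b, x⁆⁆⁆ * ⁅⁅a, x⁆, ⁅b, x⁆⁆ = 1 := fun a ha b hb => by
    have hs := s.cw ha hx
    have ht := s.cw hb hx
    have hr := s.cw ha ht
    have e1 : ⁅⁅a, x⁆, ⁅a, ⁅b, x⁆⁆⁆ = 1 :=
      (q.step (q.step (q.step (d0 hw) h1) hb) ha).2 3 _ hs (l c h1 a ha)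
    have e2 := hc ha _ (commutator_mem_commutator hx ht)
    have e3 : a * ⁅x, ⁅b, x⁆⁆ * a⁻¹ = ⁅⁅a, x⁆ * x, ⁅a, ⁅b, x⁆⁆ * ⁅b, x⁆⁆ := by
      simp only [commutatorElement_def]; group
    rw [← e2, mul_inv_cancel_right,
      commutatorElement_mul_left_of_commute (cz hx (W.mul_mem hr ht) hs),
      commutatorElement_mul_right_of_commute (cz hx ht hr),
      commutatorElement_mul_right_of_commute (cz hs ht hr), e1, one_mul,
      ← (cz hx ht (s.zw (s.wz (commutator_mem_commutator hx hr)))).symm.eq, mul_assoc,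
      left_eq_mul] at e3
    exact e3
  refine s.red h hx fun a ha b hb => ?_
  have hs := s.cw ha hx
  have ht := s.cw hb hx
  have e1 : ⁅a, ⁅b, x⁆⁆ = ⁅b, ⁅a, x⁆⁆ * ⁅⁅a, x⁆, ⁅b, x⁆⁆ := by
    have e1 : ⁅a, ⁅b, x⁆⁆ = ⁅a * b, x⁆ * (⁅a, x⁆⁻¹ * ⁅b, x⁆⁻¹) := by
      simp only [commutatorElement_def]; group
    have e2 : ⁅b, ⁅a, x⁆⁆ * ⁅⁅a, x⁆, ⁅b, x⁆⁆ = ⁅b * a, x⁆ * (⁅b, x⁆⁻¹ * ⁅a, x⁆⁻¹ *
        ⁅⁅a, x⁆, ⁅b, x⁆⁆) := by
      simp only [commutatorElement_def]; group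
    rw [e1, e2, h.ab.comm hb a ha, commutatorElement_def ⁅a, x⁆ ⁅b, x⁆]
    group
  have e2 := key a ha b hb
  have e3 := key b hb a ha
  have hy := s.wz (commutator_mem_commutator hs ht)
  rw [e1, commutatorElement_mul_right_of_commute (cz hx (s.zw hy) (s.cw hb hs)),
    commutatorElement_eq_one_iff_mul_comm.2 (s.zc hy x hx), mul_one, eq_inv_of_mul_eq_one_left e3,
    commutatorElement_inv, ← pow_two] at e2
  obtain ⟨k, hk⟩ := isPGroup_iff_forall.1 h.pS _ (h.le (s.le (s.zw hy)))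
  exact orderOf_eq_one_iff.1 (Nat.eq_one_of_dvd_coprimes (((Nat.coprime_primes Nat.prime_two
    hp.out).2 hp2.symm).pow_right k) (orderOf_dvd_of_pow_eq_one e2) (orderOf_dvd_of_pow_eq_one hk))

end Sec

/-- An element of small degree on an irreducible section fixes the commutator form. -/
theorem form_fix {Γ W Z Y1 Y2 : Subgroup G} {a : G} (hW : Γ ≤ normalizer (W : Set G))
    (hZ : Z ≤ centralizer (W : Set G)) (hc : ⁅W, W⁆ ≤ centralizer (W : Set G))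
    (hpow : ∀ w ∈ W, w ^ p ∈ Z) (hZW : Z ≤ W) (hne : ¬ W ≤ Z)
    (hirr : ∀ X, Z ≤ X → X ≤ W → Γ ≤ normalizer (X : Set G) → X ≤ Z ∨ W ≤ X)
    (h21 : Y2 ≤ Y1) (h1 : Y1 ≤ ⁅W, W⁆) (k1 : ∀ γ ∈ Γ, ∀ y ∈ ⁅W, W⁆, ⁅γ, y⁆ ∈ Y1)
    (k2 : ∀ γ ∈ Γ, ∀ y ∈ Y1, ⁅γ, y⁆ ∈ Y2) (ha : a ∈ Γ) (hd : ∀ w ∈ W, ic a (p - 1) w ∈ Z) :
    ∀ y ∈ ⁅W, W⁆, ⁅a, y⁆ ∈ Y2 := by
  set Y := ⁅W, W⁆ with hY
  have hYW : Y ≤ W := commutator_le_self W
  have nY : Γ ≤ normalizer (Y : Set G) := H7.le_normalizer_commutator hW hW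
  obtain ⟨V, _, ⟨C⟩⟩ := exists_secMap (h21.trans h1) ((H7.commutator_le_of_le_centralizer
    (hc.trans (H7.centralizer_anti hYW))).trans bot_le)
  have m : ∀ {u v : G}, u ∈ W → v ∈ W → ⁅u, v⁆ ∈ Y := commutator_mem_commutator
  have ma : ∀ {γ y : G}, γ ∈ Γ → y ∈ Y → ⁅γ, y⁆ ∈ Y := fun hγ hy => h1 (k1 _ hγ _ hy)
  have cz : ∀ {y w : G}, y ∈ Y → w ∈ W → Commute w y := fun hy hw => hc hy _ hw
  have cj1 : ∀ {γ y : G}, γ ∈ Γ → y ∈ Y → C.π (γ * y * γ⁻¹) = C.π ⁅γ, y⁆ + C.π y := fun hγ hy => by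
    rw [C.map_commutator (nY hγ) hy, sub_add_cancel]
  have δ : ∀ {y y' : G}, y ∈ Y → y' ∈ Y → C.π ⁅a, y * y'⁆ = C.π ⁅a, y⁆ + C.π ⁅a, y'⁆ :=
    fun hy hy' => by
      rw [commutatorElement_mul_right_of_commute (cz (ma ha hy') (hYW hy)),
        C.map_mul _ (ma ha hy) _ (ma ha hy')]
  have δ1 : ∀ {γ y : G}, γ ∈ Γ → y ∈ Y → C.π ⁅a, γ * y * γ⁻¹⁆ = C.π ⁅a, y⁆ := fun {γ y} hγ hy => by
    rw [show γ * y * γ⁻¹ = ⁅γ, y⁆ * y by simp [commutatorElement_def], δ (ma hγ hy) hy,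
      (C.eq_zero _ (ma ha (ma hγ hy))).2 (k2 a ha _ (k1 γ hγ y hy)), zero_add]
  let f : G → G → V := fun u v => C.π ⁅u, v⁆
  let g : G → G → V := fun u v => C.π ⁅a, ⁅u, v⁆⁆
  have fl : ∀ {u u' v : G}, u ∈ W → u' ∈ W → v ∈ W → f (u * u') v = f u v + f u' v :=
    fun hu hu' hv => by
      simp only [f]
      rw [commutatorElement_mul_left_of_commute (cz (m hu' hv) hu), C.map_mul _ (m hu' hv) _
        (m hu hv), add_comm]
  have fr : ∀ {u v v' : G}, u ∈ W → v ∈ W → v' ∈ W → f u (v * v') = f u v + f u v' :=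
    fun hu hv hv' => by
      simp only [f]
      rw [commutatorElement_mul_right_of_commute (cz (m hu hv') hv), C.map_mul _ (m hu hv) _
        (m hu hv')]
  have gl : ∀ {u u' v : G}, u ∈ W → u' ∈ W → v ∈ W → g (u * u') v = g u v + g u' v :=
    fun hu hu' hv => by
      simp only [g]
      rw [commutatorElement_mul_left_of_commute (cz (m hu' hv) hu), δ (m hu' hv) (m hu hv),
        add_comm]
  have gr : ∀ {u v v' : G}, u ∈ W → v ∈ W → v' ∈ W → g u (v * v') = g u v + g u v' :=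
    fun hu hv hv' => by
      simp only [g]
      rw [commutatorElement_mul_right_of_commute (cz (m hu hv') hv), δ (m hu hv) (m hu hv')]
  have mα : ∀ {u : G}, u ∈ W → ⁅a, u⁆ ∈ W := commutatorElement_mem_of_normalizer (hW ha)
  have mc : ∀ {γ u : G}, γ ∈ Γ → u ∈ W → γ * u * γ⁻¹ ∈ W := fun hγ =>
    conj_mem_of_mem_normalizer (hW hγ)
  have ec : ∀ u : G, a * u * a⁻¹ = ⁅a, u⁆ * u := fun u => by simp [commutatorElement_def]
  have f1 : ∀ {u v : G}, u ∈ W → v ∈ W → f ⁅a, u⁆ (a * v * a⁻¹) = g u v - f u ⁅a, v⁆ :=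
    fun {u v} hu hv => by
      have e1 : f (a * u * a⁻¹) (a * v * a⁻¹) = g u v + f u v := by
        simp only [f, g]; rw [← conjugate_commutatorElement, cj1 ha (m hu hv)]
      rw [ec u, fl (mα hu) hu (mc ha hv), ec v, fr hu (mα hv) hv] at e1
      rw [ec v, eq_sub_iff_add_eq, ← add_left_inj (f u v), ← e1, add_assoc]
  have g1 : ∀ {u v : G}, u ∈ W → v ∈ W → g ⁅a, u⁆ (a * v * a⁻¹) = - g u ⁅a, v⁆ :=
    fun {u v} hu hv => by
      have e1 : g (a * u * a⁻¹) (a * v * a⁻¹) = g u v := by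
        simp only [g]; rw [← conjugate_commutatorElement, δ1 ha (m hu hv)]
      rw [ec u, gl (mα hu) hu (mc ha hv), ec v, gr hu (mα hv) hv] at e1
      rw [ec v, eq_neg_iff_add_eq_zero, ← add_left_inj (g u v), add_assoc, e1, zero_add]
  have mi : ∀ k {u : G}, u ∈ W → ic a k u ∈ W := fun k _ hu => ic_mem (hW ha) hu k
  have mp : ∀ (k : ℕ) {u : G}, u ∈ W → a ^ k * u * (a ^ k)⁻¹ ∈ W := fun k _ => mc (Γ.pow_mem ha k)
  have e1 : ∀ (k : ℕ) (v : G), a ^ (k + 1) * v * (a ^ (k + 1))⁻¹ =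
      a * (a ^ k * v * (a ^ k)⁻¹) * a⁻¹ := fun k v => by rw [pow_succ']; group
  have e2 : ∀ (k : ℕ) (v : G), ⁅a, a ^ k * v * (a ^ k)⁻¹⁆ = a ^ k * ⁅a, v⁆ * (a ^ k)⁻¹ :=
    fun k v => by simp only [commutatorElement_def]; group
  have g2 : ∀ (k : ℕ) {u v : G}, u ∈ W → v ∈ W →
      g (ic a k u) (a ^ k * v * (a ^ k)⁻¹) = (-1 : ℤ) ^ k • g u (ic a k v) := by
    intro k
    induction k with
    | zero => intro u v _ _; simp [ic_zero]
    | succ k ih =>
      intro u v hu hv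
      rw [ic_succ, e1, g1 (mi k hu) (mp k hv), e2, ih hu (mα hv), ← ic_succ', pow_succ]
      simp
  have f2 : ∀ (k : ℕ) {u v : G}, u ∈ W → v ∈ W →
      f (ic a (k + 1) u) (a ^ (k + 1) * v * (a ^ (k + 1))⁻¹) =
        (-1 : ℤ) ^ k • ((k + 1) • g u (ic a k v) - f u (ic a (k + 1) v)) := by
    intro k
    induction k with
    | zero => intro u v hu hv; simpa [ic_zero, ic_succ] using f1 hu hv
    | succ k ih =>
      intro u v hu hv
      rw [ic_succ, e1, f1 (mi _ hu) (mp _ hv), e2, ih hu (mα hv), g2 _ hu hv, ← ic_succ', ← ic_succ',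
        pow_succ, succ_nsmul _ (k + 1)]
      simp only [mul_smul, neg_smul, one_smul, smul_sub, smul_add, smul_neg]
      abel
  let R : Subgroup G := mkSub {v | v ∈ W ∧ ∀ u ∈ W, g u v = 0}
    ⟨W.one_mem, fun u _ => by simp [g, C.map_one]⟩ fun _ h _ k =>
      ⟨W.mul_mem h.1 k.1, fun u hu => by rw [gr hu h.1 k.1, h.2 u hu, k.2 u hu, add_zero]⟩
  have cZ : ∀ {u z : G}, u ∈ W → z ∈ Z → ⁅u, z⁆ = 1 := fun hu hz =>
    commutatorElement_eq_one_iff_mul_comm.2 (hZ hz _ hu)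
  rcases hirr R (fun z hz => ⟨hZW hz, fun u hu => by simp [g, cZ hu hz, C.map_one]⟩)
    (fun _ h => h.1) (fun γ hγ => H7.mem_normalizer_of_cj_le (H7.cj_le_iff'.2 fun v hv =>
      ⟨mc hγ hv.1, fun u hu => by
        have := hv.2 _ (mc (Γ.inv_mem hγ) hu)
        simp only [g] at this ⊢
        rw [← this, ← δ1 hγ (m (mc (Γ.inv_mem hγ) hu) hv.1), conjugate_commutatorElement]
        congr 3; group⟩)) with r | r
  · exfalso
    have gp : ∀ {u v : G}, u ∈ W → v ∈ W → p • g u v = 0 := fun {u v} hu hv => by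
      have : ∀ n : ℕ, g u (v ^ n) = n • g u v := fun n => by
        induction n with
        | zero => simp [g, C.map_one]
        | succ n ih => rw [pow_succ, gr hu (W.pow_mem hv n) hv, ih, succ_nsmul]
      rw [← this]; simp [g, cZ hu (hpow v hv), C.map_one]
    have dn : ∀ k, k < p → (∀ w ∈ W, ic a k w ∈ Z) → W ≤ Z := by
      intro k
      induction k with
      | zero => exact fun _ h => h
      | succ k ih =>
        refine fun hk h => ih (by omega) fun v hv => r ⟨mi k hv, fun u hu => ?_⟩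
        have e := f2 k hu hv
        simp only [f] at e
        rw [cZ hu (h v hv), ← commutatorElement_inv, cZ (mp _ hv) (h u hu), inv_one, C.map_one,
          sub_zero, eq_comm] at e
        have e' : (k + 1) • g u (ic a k v) = 0 := by
          rcases neg_one_pow_eq_or ℤ k with c | c <;> simpa [c] using e
        exact AddMonoid.addOrderOf_eq_one_iff.1 (Nat.eq_one_of_dvd_coprimes
          (Nat.coprime_of_lt_prime (Nat.succ_ne_zero k) hk hp.out)
          (addOrderOf_dvd_of_nsmul_eq_zero (gp hu (mi k hv))) (addOrderOf_dvd_of_nsmul_eq_zero e'))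
    exact hne (dn _ (Nat.sub_lt hp.out.pos one_pos) hd)
  · let K : Subgroup G := mkSub {y | y ∈ Y ∧ C.π ⁅a, y⁆ = 0}
      ⟨Y.one_mem, by simp [C.map_one]⟩ fun _ h _ k =>
        ⟨Y.mul_mem h.1 k.1, by rw [δ h.1 k.1, h.2, k.2, add_zero]⟩
    have : Y ≤ K := commutator_le.2 fun u hu v hv => ⟨m hu hv, (r hv).2 u hu⟩
    exact fun y hy => (C.eq_zero _ (ma ha hy)).1 (this hy).2

/-- The degree is at most four if the centre of `T` is centralised by a normal supplement. -/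
theorem four_of_cent (hp7 : 7 ≤ p) {S T A W Z : Subgroup G} [W.Normal] [Z.Normal] [T.Normal]
    (h : Big p S T A) (s : Sec T A W Z) (hpow : ∀ w ∈ W, w ^ p ∈ Z)
    (hmin : ∀ X : Subgroup G, X.Normal → Z ≤ X → X ≤ W → X ≤ Z ∨ W ≤ X)
    (hC : ⊤ ≤ centralizer ((T ⊓ centralizer (T : Set G) : Subgroup G) : Set G) ⊔ S) {w : G}
    (hw : w ∈ W) : Ht A Z 4 w := by
  set C := centralizer ((T ⊓ centralizer (T : Set G) : Subgroup G) : Set G) with hCdef
  have nC : C.Normal := inferInstance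
  set 𝓔 : Set G := {a | ∀ w ∈ W, ic a (p - 1) w ∈ Z}
  set Γ := C ⊔ normalClosure 𝓔
  have nΓ : Γ.Normal := inferInstance
  have nZ : ∀ a ∈ (A : Set G), a ∈ normalizer (Z : Set G) := fun _ ha => s.nZ ha
  have hA : A ≤ Γ := fun a ha => mem_sup_right (subset_normalClosure fun w hw =>
    ht_ic (j := 0) ha (Ht.mono nZ (by omega) (s.six h hw)))
  by_cases hne : W ≤ Z
  · exact Ht.of_mem nZ (hne hw) 4
  let Pr : Subgroup G → Prop := fun X => Z ≤ X ∧ X ≤ W ∧ Γ ≤ normalizer (X : Set G) ∧ ¬ X ≤ Z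
  obtain ⟨X0, x0, hm⟩ := exists_min_card (P := Pr) ⟨W, s.zw, le_rfl, le_normalizer_of_normal, hne⟩
  have key : ∀ X, Pr X → Nat.card X = Nat.card X0 → ∀ x ∈ X, Ht A Z 4 x := by
    intro X ⟨x1, x2, x3, x4⟩ e x hx
    have s1 : Sec T A X Z := ⟨x2.trans s.le, hA.trans x3, s.nZ, x1,
      s.zc.trans (H7.centralizer_anti x2), (commutator_mono x2 le_rfl).trans s.ct⟩
    refine s1.four h (by omega) ?_ hx
    set Y := ⁅X, X⁆ with hY
    set S1 := Γ ⊓ S
    have nY : Γ ≤ normalizer (Y : Set G) := H7.le_normalizer_commutator x3 x3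
    have cY : C ≤ centralizer (Y : Set G) := H7.centralizer_anti s1.ww
    have y1 : ⁅Y, S1⁆ ≤ Y := H7.commutator_le_left_of_le_normalizer (inf_le_left.trans nY)
    have n1 : S1 ≤ normalizer ((⁅Y, S1⁆ : Subgroup G) : Set G) :=
      H7.le_normalizer_commutator (inf_le_left.trans nY) le_normalizer
    have y2 : ⁅⁅Y, S1⁆, S1⁆ ≤ ⁅Y, S1⁆ := H7.commutator_le_left_of_le_normalizer n1
    have dec : ∀ U ≤ Y, ∀ γ ∈ Γ, ∀ y ∈ U, ⁅γ, y⁆ ∈ ⁅U, S1⁆ := fun U hU γ hγ y hy => by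
      obtain ⟨c, hc, t, ht, rfl⟩ := (mem_sup_of_le_normalizer_left le_normalizer_of_normal).1
        (hC (mem_top γ))
      have t1 : t ∈ Γ := by simpa using Γ.mul_mem (Γ.inv_mem (mem_sup_left hc)) hγ
      have e : ⁅c * t, y⁆ = c * ⁅t, y⁆ * c⁻¹ * ⁅c, y⁆ := by simp only [commutatorElement_def]; group
      rw [e, commutatorElement_eq_one_iff_mul_comm.2 (cY hc y (hU hy)).symm, mul_one,
        ← cY hc _ (commutatorElement_mem_of_normalizer (nY t1) (hU hy)), mul_inv_cancel_right]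
      exact H7.commutator_mem_commutator' hy ⟨t1, ht⟩
    have n2 : Γ ≤ normalizer ((⁅⁅Y, S1⁆, S1⁆ : Subgroup G) : Set G) := fun γ hγ =>
      H7.mem_normalizer_of_cj_le (H7.cj_le_iff'.2 fun y hy => by
        simpa [commutatorElement_def] using mul_mem (dec _ y1 γ hγ y (y2 hy)) hy)
    have st : Γ ≤ H7.stab Y ⁅⁅Y, S1⁆, S1⁆ := by
      refine sup_le (H7.le_stab_iff.2 ⟨le_sup_left.trans n2, (H7.commutator_le_of_le_centralizer
        cY).trans bot_le⟩) ((closure_le _).2 fun a ha => ?_)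
      have a1 : a ∈ Γ := mem_sup_right (subset_closure ha)
      obtain ⟨b, hb, l⟩ := Group.mem_conjugatesOfSet_iff.1 ha
      obtain ⟨c, rfl⟩ := isConj_iff.1 l
      refine ⟨n2 a1, fun y hy => ?_⟩
      rw [← commutatorElement_inv]
      refine inv_mem (form_fix x3 s1.zc (s1.wz.trans s1.zc) (fun w hw => hpow w (x2 hw)) x1 x4
        (fun U u1 u2 u3 => ?_) y2 y1 (dec Y le_rfl) (dec _ y1) a1 (fun w hw => ?_) y hy)
      · by_contra! k
        exact k.2 (H7.eq_of_le_of_card_le u2 (e ▸ hm U ⟨u1, u2.trans x2, u3, k.1⟩)).ge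
      · have := Normal.conj_mem ‹Z.Normal› _ (hb _ (Normal.conj_mem ‹W.Normal› _ (x2 hw) c⁻¹)) c
        rwa [conj_ic, show c * (c⁻¹ * w * c⁻¹⁻¹) * c⁻¹ = w by group] at this
    have z : ⁅Y, S1⁆ = ⊥ := by
      by_contra k
      exact (commutator_lt_of_isPGroup (h.pS.to_le inf_le_right) (h.pS.to_le (y1.trans
        (s1.ww.trans (inf_le_left.trans h.le)))) n1 k).not_ge
        (H7.le_stab_iff.1 (inf_le_left.trans st)).2
    exact (le_inf hA h.ab.le).trans (H7.le_centralizer_of_commutator_le_bot z.le)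
  let K := htSub nZ (fun _ ha => s.nW ha) s.zw s.wz 4
  have k1 : ncl ⊤ X0 ≤ K := ncl_le_iff.2 fun g _ x hx => by
    have p1 : Pr (H7.cj g X0) := ⟨(H7.cj_eq_of_normal g Z).ge.trans (H7.cj_mono x0.1),
      H7.cj_le_of_le (le_normalizer_of_normal (mem_top g)) x0.2.1,
      (H7.cj_eq_of_normal g Γ).ge.trans (H7.cj_le_normalizer_cj g x0.2.2.1),
      fun k => x0.2.2.2 (H7.cj_le_cj_iff.1 (k.trans (H7.cj_eq_of_normal g Z).ge))⟩
    exact ⟨p1.2.1 hx, key _ p1 (H7.card_cj g X0) x hx⟩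
  have k2 := (hmin (ncl ⊤ X0) (H7.normal_of_le_normalizer_top (le_normalizer_ncl ⊤ X0))
    (x0.1.trans (le_ncl ⊤ X0)) (ncl_le x0.2.1 le_normalizer_of_normal)).resolve_left fun k => x0.2.2.2 ((le_ncl ⊤ X0).trans k)
  exact (k1 (k2 hw)).2

end Cfsg.JTr
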