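import Cfsg.Agent.H7.J2

/-! From class two sections to arbitrary top sections; an orbit sum for two elements. -/

set_option autoImplicit false
set_option linter.unusedSectionVars false
universe u
open Subgroup Cfsg Cfsg.L0 Cfsg.H8
open scoped commutatorElement

namespace Cfsg.JTr

variable {G : Type u} [Group G] [Finite G] {p : ℕ} [hp : Fact p.Prime]

section
variable {S T A H X : Subgroup G} {𝓐 : Set G} {β : ℕ}

theorem pairing (h : Big p S T A) (hSH : S ≤ H) (hn : H ≤ normalizer (T : Set G))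
    (h𝓐 : 𝓐 ⊆ A) (hX : X ≤ T) (hXn : H ≤ normalizer (X : Set G)) {P P0 : Subgroup G}
    (hP : P ≤ T) (nP : H ≤ normalizer (P : Set G)) (nP0 : H ≤ normalizer (P0 : Set G))
    (hE : ⁅P, X⁆ ≤ centralizer ((⁅P, X⁆ : Subgroup G) : Set G)) (hb : ¬ X ≤ centralizer (P : Set G))
    (h0 : X ≤ centralizer (P0 : Set G)) (hβ : ∀ u ∈ P, Ht 𝓐 P0 β u) :
    ∃ Y, Y < X ∧ H ≤ normalizer (Y : Set G) ∧ ∀ x ∈ X, Ht 𝓐 Y (β + 2) x := by
  have hA : ∀ a ∈ 𝓐, a ∈ H := fun a ha => hSH (h.ab.le (h𝓐 ha))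
  have hTH := h.le.trans hSH
  have n1 := H7.le_normalizer_commutator nP hXn
  have n2 := H7.le_normalizer_commutator n1 hn
  have e1 : ⁅P, X⁆ ≤ T := (commutator_mono hP hX).trans (commutator_le_self T)
  have lt := commutator_lt_of_isPGroup (h.pS.to_le h.le) (h.pS.to_le (e1.trans h.le))
    (hTH.trans n1) fun e => hb (H7.commutator_eq_bot_iff'.1 e)
  have q : Pair 𝓐 P P0 X ⁅P, X⁆ ⁅⁅P, X⁆, T⁆ :=
    ⟨fun a ha b hb => h.ab.comm (h𝓐 hb) a (h𝓐 ha), fun a ha => nP (hA a ha),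
      fun a ha => nP0 (hA a ha), fun a ha => hXn (hA a ha), fun a ha => n1 (hA a ha),
      fun a ha => n2 (hA a ha), lt.le, commutator_mono le_rfl e1, le_rfl,
      fun _ he _ hx => H7.commutator_mem_commutator' he (hP hx),
      fun _ he _ hx => H7.commutator_mem_commutator' he (hX hx),
      H7.commutator_le_of_le_centralizer h0⟩
  refine ⟨X ⊓ H7.stab P ⁅⁅P, X⁆, T⁆, inf_lt_left.2 fun e => lt.not_ge (H7.le_stab_iff.1 e).2,
    H7.le_normalizer_inf hXn (H7.le_normalizer_stab nP n2), fun x hx => ?_⟩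
  exact q.deg (α := 3) hβ (fun v hv k => mem_inf.2 ⟨hv, H7.mem_stab.2 ⟨n2 (hTH (hX hv)), k⟩⟩) _ 0 x (by omega)
    (q.dp0 (fun e he => (h.three' e1 hE ((h.ab.le.trans hSH).trans n1)
      ((h.ab.le.trans hSH).trans n2) le_rfl he).anti h𝓐 le_rfl) hx)

theorem embed (h : Big p S T A) (hSH : S ≤ H) (hn : H ≤ normalizer (T : Set G))
    (h𝓐 : 𝓐 ⊆ A) (h3 : 3 ≤ β) (hβ : ∀ W Z, Sec T A W Z → H ≤ normalizer (W : Set G) →
      H ≤ normalizer (Z : Set G) → (∀ w ∈ W, w ^ p ∈ Z) → (∀ U : Subgroup G, H ≤ normalizer (U : Set G) →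
        Z ≤ U → U ≤ W → U ≤ Z ∨ W ≤ U) → ∀ w ∈ W, Ht 𝓐 Z β w)
    (hX : X ≤ T) (hXn : H ≤ normalizer (X : Set G)) (hb : X ≠ ⊥) :
    ∃ Y, Y < X ∧ H ≤ normalizer (Y : Set G) ∧ ∀ x ∈ X, Ht 𝓐 Y (β + 2) x := by
  have hAH := h.ab.le.trans hSH
  have hTH := h.le.trans hSH
  have pT := h.pS.to_le h.le
  obtain ⟨Z, ⟨z1, z2, z3⟩, z4⟩ := exists_max_card (P := fun Z : Subgroup G => Z ≤ T ∧
    H ≤ normalizer (Z : Set G) ∧ Z ≤ centralizer (Z : Set G))
    ⟨⊥, bot_le, le_normalizer_bot _, bot_le⟩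
  have ab : ∀ {U}, U ≤ Z → U ≤ centralizer (U : Set G) := fun k =>
    k.trans (z3.trans (H7.centralizer_anti k))
  have top : ∀ {U}, U ≤ Z → H ≤ normalizer (U : Set G) → ∀ n, β ≤ n → ∀ u ∈ U,
      Ht 𝓐 ⁅U, T⁆ n u := fun k l n e u hu =>
    have n2 := hAH.trans (H7.le_normalizer_commutator l hn)
    Ht.mono (fun a ha => n2 (h𝓐 ha)) (h3.trans e)
      ((h.three' (k.trans z1) (ab k) (hAH.trans l) n2 le_rfl hu).anti h𝓐 le_rfl)
  by_cases c1 : X ≤ Z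
  · exact ⟨_, commutator_lt_of_isPGroup pT (pT.to_le hX) (hTH.trans hXn) hb,
      H7.le_normalizer_commutator hXn hn, top c1 hXn _ (Nat.le_add_right β 2)⟩
  by_cases c2 : X ≤ centralizer (Z : Set G)
  swap
  · obtain ⟨D, ⟨d1, d2, d3⟩, d4⟩ := exists_min_card (P := fun D : Subgroup G => D ≤ Z ∧
      H ≤ normalizer (D : Set G) ∧ ¬ X ≤ centralizer (D : Set G)) ⟨Z, le_rfl, z2, c2⟩
    have d5 : D ≠ ⊥ := fun e => d3 (by rw [e, H7.centralizer_bot']; exact le_top)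
    have d6 := commutator_lt_of_isPGroup pT (pT.to_le (d1.trans z1)) (hTH.trans d2) d5
    have d7 := H7.le_normalizer_commutator d2 hn
    refine pairing h hSH hn h𝓐 hX hXn (d1.trans z1) d2 d7
      (ab ((commutator_mono le_rfl hX).trans (d6.le.trans d1))) d3 ?_ (top d1 d2 β le_rfl)
    by_contra e
    exact (d4 _ ⟨d6.le.trans d1, d7, e⟩).not_gt (card_lt_of_lt d6)
  obtain ⟨W, ⟨w1, w2, w3, w4⟩, w5⟩ := exists_min_card (P := fun W : Subgroup G => Z ≤ W ∧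
    W ≤ X ⊔ Z ∧ H ≤ normalizer (W : Set G) ∧ ¬ W ≤ Z) ⟨X ⊔ Z, le_sup_right, le_rfl,
      H7.le_normalizer_sup hXn z2, fun e => c1 (le_sup_left.trans e)⟩
  have w6 : ∀ U : Subgroup G, H ≤ normalizer (U : Set G) → Z ≤ U → U ≤ W → U ≤ Z ∨ W ≤ U := fun U u1 u2 u3 =>
    or_iff_not_imp_left.2 fun k => (H7.eq_of_le_of_card_le u3 (w5 U ⟨u2, u3.trans w2, u1, k⟩)).ge
  have wT : W ≤ T := w2.trans (sup_le hX z1)
  have wc : Z ≤ centralizer (W : Set G) := le_centralizer_iff.1 (w2.trans (sup_le c2 z3))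
  have ct : ⁅W, T⁆ ≤ Z := by
    obtain ⟨U, u1, u2, u3, u4⟩ := H7.exists_not_le_commutator_le pT wT (hTH.trans w3) w4
    refine (commutator_mono ((w6 (U ⊔ Z) (H7.le_normalizer_sup ((le_inf w3 hn).trans u4) z2)
      le_sup_right (sup_le u1 w1)).resolve_left fun e => u2 (le_sup_left.trans e)) le_rfl).trans ?_
    exact H7.sup_commutator_le ((u1.trans wT).trans (hTH.trans z2)) le_normalizer
      (u3.trans inf_le_left) (H7.commutator_le_left_of_le_normalizer (hTH.trans z2))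
  have pw : ∀ w ∈ W, w ^ p ∈ Z := by
    obtain ⟨Y, y1, y2, y3, y4⟩ := exists_lt_of_ne_bot (pT.to_le wT) (lt_of_le_not_ge w1 w4)
    have k : Subgroup.closure ((· ^ p) '' (W : Set G)) ≤ Y := (closure_le _).2 (by
      rintro _ ⟨w, hw, rfl⟩; exact pow_mem_of_relIndex_eq y3 y4 hw)
    have n : H ≤ normalizer (Subgroup.closure ((· ^ p) '' (W : Set G)) : Set G) := fun g hg =>
      H7.mem_normalizer_of_cj_le (by
        rw [H7.cj_closure]
        refine closure_mono ?_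
        rintro _ ⟨_, ⟨w, hw, rfl⟩, rfl⟩
        exact ⟨_, conj_mem_of_mem_normalizer (w3 hg) hw, conj_pow⟩)
    intro w hw
    exact (w6 _ (H7.le_normalizer_sup n z2) le_sup_right (sup_le (k.trans y2.le) w1)).resolve_right
      (fun e => y2.not_ge (e.trans (sup_le k y1))) (mem_sup_left (subset_closure ⟨w, hw, rfl⟩))
  refine pairing h hSH hn h𝓐 hX hXn wT w3 z2 (ab ((commutator_mono le_rfl hX).trans ct))
    (fun e => w4 ?_) c2 (hβ W Z ⟨wT, hAH.trans w3, hAH.trans z2, w1, wc, ct⟩ w3 z2 pw w6)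
  exact (H7.eq_of_le_of_card_le w1 (z4 W ⟨wT, w3, w2.trans (sup_le e wc)⟩)).ge

end

theorem sum_free {Ω V : Type*} [AddCommGroup V] {σ τ : Equiv.Perm Ω} (hc : Commute σ τ)
    (hσ : σ ^ p = 1) (hτ : τ ^ p = 1) (f : Ω → V) (s : Finset Ω)
    (h1 : ∀ x ∈ s, ∀ i j : ℕ, (σ ^ i * τ ^ j) x ∈ s)
    (h2 : ∀ x ∈ s, ∀ i < p, ∀ j < p, (σ ^ i * τ ^ j) x = x → i = 0 ∧ j = 0)
    (h3 : ∀ x ∈ s, ∑ i ∈ Finset.range p, ∑ j ∈ Finset.range p, f ((σ ^ i * τ ^ j) x) = 0) :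
    ∑ x ∈ s, f x = 0 := by
  classical
  have p0 := hp.out.pos
  have ml : ∀ (a b i j : ℕ) (x : Ω), (σ ^ a * τ ^ b) ((σ ^ i * τ ^ j) x) =
      (σ ^ (a + i) * τ ^ (b + j)) x := fun a b i j x => by
    rw [← Equiv.Perm.mul_apply, pow_add, pow_add, (hc.pow_pow i b).symm.mul_mul_mul_comm]
  have md : ∀ i j : ℕ, σ ^ i * τ ^ j = σ ^ (i % p) * τ ^ (j % p) := fun i j => by
    rw [← pow_eq_pow_mod i hσ, ← pow_eq_pow_mod j hτ]
  have e1 : ∀ i : ℕ, (p - 1) * i + i = p * i := fun i => by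
    rw [← Nat.succ_mul, Nat.succ_eq_add_one, Nat.sub_add_cancel p0]
  have e2 : ∀ {i i' : ℕ}, i < p → i' < p → (p - i' + i) % p = 0 → i = i' := fun h h' e => by
    have := Nat.eq_of_dvd_of_lt_two_mul (by omega) (Nat.dvd_of_mod_eq_zero e) (by omega)
    omega
  let R : Setoid Ω := ⟨fun a x => ∃ i j : ℕ, a = (σ ^ i * τ ^ j) x, fun _ => ⟨0, 0, by simp⟩,
    fun ⟨i, j, e⟩ => ⟨(p - 1) * i, (p - 1) * j, by
      rw [e, ml, e1, e1, pow_mul, pow_mul, hσ, hτ]; simp⟩,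
    fun ⟨i, j, e⟩ ⟨a, b, e'⟩ => ⟨i + a, j + b, by rw [e, e', ml]⟩⟩
  refine Finset.sum_cancels_of_partition_cancels R fun x hx => ?_
  rw [← h3 x hx, ← Finset.sum_product', eq_comm]
  refine Finset.sum_bij (fun q _ => (σ ^ q.1 * τ ^ q.2) x) (fun q _ => Finset.mem_filter.2
    ⟨h1 x hx _ _, _, _, rfl⟩) (fun q hq q' hq' e => ?_) (fun y hy => ?_) fun _ _ => rfl
  · simp only [Finset.mem_product, Finset.mem_range] at hq hq'
    have e3 := congrArg (σ ^ (p - q'.1) * τ ^ (p - q'.2)) e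
    rw [ml, ml, Nat.sub_add_cancel hq'.1.le, Nat.sub_add_cancel hq'.2.le, hσ, hτ, md, one_mul,
      Equiv.Perm.one_apply] at e3
    have e4 := h2 x hx _ (Nat.mod_lt _ p0) _ (Nat.mod_lt _ p0) e3
    exact Prod.ext (e2 hq.1 hq'.1 e4.1) (e2 hq.2 hq'.2 e4.2)
  · obtain ⟨-, i, j, rfl⟩ := Finset.mem_filter.1 hy
    exact ⟨(i % p, j % p), by simp [Nat.mod_lt _ p0], by rw [md i j]⟩

theorem osl_two {L M W W' Y : Subgroup G} {g h : G} (hg : g ∈ L) (hgM : g ∈ M) (hh : h ∈ L)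
    (hhM : h ∈ M) (hgh : Commute g h) (pg : ∀ l ∈ L, l⁻¹ * g ^ p * l ∈ M)
    (ph : ∀ l ∈ L, l⁻¹ * h ^ p * l ∈ M)
    (hfix : ∀ l ∈ L, ∀ i < p, ∀ j < p, l⁻¹ * (h ^ j * g ^ i) * l ∈ M → l ∈ M ∨ i = 0 ∧ j = 0)
    (hW : L ≤ normalizer (W : Set G)) (hYW : Y ≤ W) (hc : ⁅W, W⁆ ≤ Y) (hpow : ∀ x ∈ W, x ^ p ∈ Y)
    (hM : ⁅W, M ⊓ L⁆ ≤ Y) (hW' : W' ≤ W) (hL : ⁅W', L⁆ ≤ Y)
    (hdeg : ∀ w ∈ W, ic h (p - 1) (ic g (p - 1) w) ∈ W') : ⁅W, L⁆ ≤ Y := by
  classical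
  obtain ⟨V, _, ⟨C⟩⟩ := exists_secMap hYW hc
  have hV : ∀ v : V, p • v = 0 := fun v => by
    obtain ⟨x, hx, rfl⟩ := C.surj v
    rw [← C.map_pow hx, C.eq_zero _ (W.pow_mem hx p)]
    exact hpow x hx
  have hcj : ∀ {l x : G}, l ∈ L → x ∈ W → ⁅l, x⁆ ∈ Y → C.π (l * x * l⁻¹) = C.π x := by
    intro l x hl hx h
    have := C.map_commutator (hW hl) hx
    rw [(C.eq_zero _ (hYW h)).2 h] at this
    exact sub_eq_zero.1 this.symm
  have hinv : ∀ {m x : G}, m ∈ M → m ∈ L → x ∈ W → C.π (m * x * m⁻¹) = C.π x :=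
    fun h1 h2 hx => hcj h2 hx (hM (H7.commutator_mem_commutator' hx ⟨h1, h2⟩))
  let Ω := L ⧸ M.subgroupOf L
  have : Fintype Ω := Fintype.ofFinite Ω
  let φ : Ω → G → V := fun ω x => C.π ((ω.out : G)⁻¹ * x * ω.out)
  have hφ : ∀ (l : L) {x : G}, x ∈ W → φ (l : Ω) x = C.π ((l : G)⁻¹ * x * l) := by
    intro l x hx
    obtain ⟨m, hm⟩ := QuotientGroup.mk_out_eq_mul (M.subgroupOf L) l
    have := hinv (M.inv_mem m.2) (L.inv_mem (m : L).2) (conj_mem_of_mem_normalizer' (hW l.2) hx)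
    rw [← this]
    show C.π (((l : Ω).out : G)⁻¹ * x * (l : Ω).out) = _
    rw [hm]
    congr 1
    simp only [coe_mul, coe_subtype]; group
  have hφ2 : ∀ (l : L) (ω : Ω) {x : G}, x ∈ W → φ (l • ω) (l * x * (l : G)⁻¹) = φ ω x := by
    intro l ω x hx
    obtain ⟨a, rfl⟩ := QuotientGroup.mk_surjective ω
    rw [MulAction.Quotient.smul_mk, smul_eq_mul, hφ _ (conj_mem_of_mem_normalizer (hW l.2) hx),
      hφ _ hx]
    congr 1
    simp only [coe_mul]; group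
  have hσ : ∀ (l : L) {x : G}, x ∈ W → ∑ ω, φ ω (l * x * (l : G)⁻¹) = ∑ ω, φ ω x := by
    intro l x hx
    rw [← Equiv.sum_comp (MulAction.toPerm l)]
    exact Finset.sum_congr rfl fun ω _ => hφ2 l ω hx
  have hσ2 : ∀ {x : G}, x ∈ W → ∑ ω, φ ω x = C.π x := by
    intro x hx
    let γ : L := ⟨g, hg⟩
    let δ : L := ⟨h, hh⟩
    let t := MulAction.toPermHom L Ω
    have ht : ∀ (i j : ℕ) (ω : Ω), (t γ⁻¹ ^ i * t δ⁻¹ ^ j) ω = (δ ^ j * γ ^ i)⁻¹ • ω :=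
      fun i j ω => by rw [← map_pow, ← map_pow, ← map_mul, inv_pow, inv_pow, ← mul_inv_rev]; rfl
    have hfx : ∀ b a : L, b⁻¹ • (a : Ω) = a ↔ (a : G)⁻¹ * b * a ∈ M := fun b a => by
      rw [MulAction.Quotient.smul_mk, smul_eq_mul, QuotientGroup.eq, mem_subgroupOf]
      simp [mul_assoc]
    have h1 : ∀ a : L, (a : Ω) = ((1 : L) : Ω) ↔ (a : G) ∈ M := fun a => by
      rw [eq_comm, QuotientGroup.eq, mem_subgroupOf]; simp
    have tp : ∀ b : L, (∀ l ∈ L, l⁻¹ * b ^ p * l ∈ M) → t b⁻¹ ^ p = 1 := fun b k => by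
      ext ω
      obtain ⟨a, rfl⟩ := QuotientGroup.mk_surjective ω
      rw [← map_pow, inv_pow]
      exact (hfx (b ^ p) a).2 (k a a.2)
    rw [← Finset.add_sum_erase _ _ (Finset.mem_univ ((1 : L) : Ω)), hφ _ hx]
    rw [sum_free (σ := t γ⁻¹) (τ := t δ⁻¹) (Commute.map (Commute.inv_inv (show Commute γ δ from Subtype.ext hgh.eq)) t)
      (tp γ pg) (tp δ ph) (fun ω => φ ω x) _ (fun ω hω i j => ?_) (fun ω hω i hi j hj e => ?_)
      fun ω _ => ?_]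
    · simp
    · obtain ⟨a, rfl⟩ := QuotientGroup.mk_surjective ω
      refine Finset.mem_erase.2 ⟨fun e => (Finset.mem_erase.1 hω).1 ?_, Finset.mem_univ _⟩
      rw [ht, MulAction.Quotient.smul_mk, h1] at e
      have := M.mul_mem (M.mul_mem (M.pow_mem hhM j) (M.pow_mem hgM i)) e
      exact (h1 a).2 (by simpa [γ, δ, mul_assoc] using this)
    · obtain ⟨a, rfl⟩ := QuotientGroup.mk_surjective ω
      rw [ht, hfx] at e
      exact (hfix a a.2 i hi j hj e).resolve_left fun k => (Finset.mem_erase.1 hω).1 ((h1 a).2 k)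
    · have e1 : ∀ i j : ℕ, φ ((t γ⁻¹ ^ i * t δ⁻¹ ^ j) ω) x =
          φ ω (h ^ j * (g ^ i * x * (g ^ i)⁻¹) * (h ^ j)⁻¹) := by
        intro i j
        rw [ht, ← hφ2 (δ ^ j * γ ^ i) _ hx, smul_inv_smul]
        simp [γ, δ, mul_assoc]
      obtain ⟨a, rfl⟩ := QuotientGroup.mk_surjective ω
      have ad : ∀ y ∈ W, ∀ z ∈ W, φ a (y * z) = φ a y + φ a z := fun y hy z hz => by
        rw [hφ _ hy, hφ _ hz, hφ _ (W.mul_mem hy hz), ← C.map_mul _
          (conj_mem_of_mem_normalizer' (hW a.2) hy) _ (conj_mem_of_mem_normalizer' (hW a.2) hz)]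
        congr 1; group
      have m1 := ic_mem (hW hg) hx (p - 1)
      simp only [e1]
      rw [sum_conj_eq_ic hV (hW hg) (fun y => ∑ j ∈ Finset.range p, φ a (h ^ j * y * (h ^ j)⁻¹))
        (fun y hy z hz => ?_) hx, sum_conj_eq_ic hV (hW hh) _ ad m1, hφ _ (ic_mem (hW hh) m1 _)]
      · have e2 := hcj (L.inv_mem a.2) (hW' (hdeg x hx))
          (hL (H7.commutator_mem_commutator' (hdeg x hx) (L.inv_mem a.2)))
        rw [inv_inv] at e2
        rw [e2, ← sum_conj_eq_ic hV (hW hh) _ C.map_mul m1,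
          Finset.sum_congr rfl fun i _ => hinv (M.pow_mem hhM i) (L.pow_mem hh i) m1,
          Finset.sum_const, Finset.card_range, hV]
      · rw [← Finset.sum_add_distrib]
        refine Finset.sum_congr rfl fun j _ => ?_
        rw [← ad _ (conj_mem_of_mem_normalizer (pow_mem (hW hh) j) hy) _
          (conj_mem_of_mem_normalizer (pow_mem (hW hh) j) hz)]
        congr 1; group
  rw [commutator_comm, commutator_le]
  intro l hl x hx
  rw [← C.eq_zero _ (commutatorElement_mem_of_normalizer (hW hl) hx), C.map_commutator (hW hl) hx,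
    ← hσ2 hx, ← hσ2 (conj_mem_of_mem_normalizer (hW hl) hx), hσ ⟨l, hl⟩ hx, sub_self]

theorem local_of_core {P H M : Subgroup G} (hP : IsSyl p P H) (hPM : P ≤ M) (hMH : M ≤ H)
    (hdeg : ∀ W, W ≤ pCoreOf p H → H ≤ normalizer (W : Set G) → W ≠ ⊥ →
      ∃ W', W' < W ∧ H ≤ normalizer (W' : Set G) ∧ ∀ Y, Y ≤ W → ⁅W, W⁆ ≤ Y →
        (∀ x ∈ W, x ^ p ∈ Y) → ⁅W, M⁆ ≤ Y → ⁅W', H⁆ ≤ Y → ⁅W, H⁆ ≤ Y) :
    ⁅pCoreOf p H, H⁆ ≤ ⁅M, M⁆ := by
  have hQp : IsPGroup p (pCoreOf p H) := H7.isPGroup_pCoreOf p H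
  have hQn : H ≤ normalizer (pCoreOf p H : Set G) := H7.le_normalizer_pCoreOf p H
  have hQP : pCoreOf p H ≤ P := hP.le_of_normalizes hQp (H7.pCoreOf_le p H) (hP.le.trans hQn)
  have hRH := H7.pResidualOf_le p H
  have h7 : H ≤ pResidualOf p H ⊔ P := hP.le_sup_of_relIndex (relIndex_eq_pow_of_forall
    (H7.le_normalizer_pResidualOf p H) fun x hx => H7.exists_pow_mem_pResidualOf hx)
  have up : ∀ {U Y : Subgroup G}, H ≤ normalizer (U : Set G) → ⁅U, pResidualOf p H⁆ ≤ Y →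
      ⁅U, P⁆ ≤ Y → ⁅U, H⁆ ≤ Y := fun {U Y} hn k1 k2 => by
    have h8 : ⁅U, H⁆ ≤ U := H7.commutator_le_left_of_le_normalizer hn
    have e1 := le_inf ((commutator_mono le_rfl hRH).trans h8) k1
    have e2 := le_inf ((commutator_mono le_rfl hP.le).trans h8) k2
    exact ((commutator_mono le_rfl h7).trans (H7.commutator_sup_le
      (H7.le_normalizer_of_commutator_le inf_le_left e1)
      (H7.le_normalizer_of_commutator_le inf_le_left e2) e1 e2)).trans inf_le_right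
  have key : ∀ n (W : Subgroup G), Nat.card W = n → W ≤ pCoreOf p H →
      H ≤ normalizer (W : Set G) → ⁅W, pResidualOf p H⁆ ≤ ⁅W, M⁆ := by
    intro n
    induction n using Nat.strong_induction_on with | _ n ih => ?_
    intro W hn h1 h2
    have h3 : ⁅W, pResidualOf p H⁆ ≤ W := H7.commutator_le_left_of_le_normalizer (hRH.trans h2)
    by_cases h4 : ⁅W, pResidualOf p H⁆ = W
    · by_cases hb : W = ⊥
      · rw [hb, commutator_bot_left]; exact bot_le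
      obtain ⟨W', e1, e2, e3⟩ := hdeg W h1 h2 hb
      refine h3.trans (by_contra fun hne => ?_)
      obtain ⟨Y, y2, y3, y4, y5⟩ := exists_lt_of_ne_bot (hQp.to_le h1) (lt_of_le_not_ge
        (H7.commutator_le_left_of_le_normalizer (hMH.trans h2)) hne)
      exact y3.not_ge (h4.ge.trans ((commutator_mono le_rfl hRH).trans (e3 Y y3.le
        (commutator_le_of_relIndex_prime y4 y5) (fun x hx => pow_mem_of_relIndex_eq y4 y5 hx) y2
        (up e2 (((ih _ (hn ▸ card_lt_of_lt e1) W' rfl (e1.le.trans h1) e2).trans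
          (commutator_mono e1.le le_rfl)).trans y2) ((commutator_mono e1.le hPM).trans y2)))))
    · have h5 := ih _ (hn ▸ card_lt_of_lt (lt_of_le_of_ne h3 h4)) _ rfl (h3.trans h1)
        (H7.le_normalizer_commutator h2 (H7.le_normalizer_pResidualOf p H))
      rw [H7.commutator_commutator_pResidualOf (hQp.to_le h1) (hRH.trans h2)] at h5
      exact h5.trans (commutator_mono h3 le_rfl)
  exact up hQn ((key _ _ rfl le_rfl hQn).trans (commutator_mono (hQP.trans hPM) le_rfl))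
    (commutator_mono (hQP.trans hPM) hPM)

end Cfsg.JTr
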