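import Cfsg.Agent.H7.J3
import Cfsg.Agent.H7.J4
import Cfsg.Agent.H1.Tate

/-! The normaliser of the Thompson subgroup controls transfer for `p ≥ 7`. -/

set_option autoImplicit false
set_option linter.unusedSectionVars false
universe u
open Subgroup Cfsg Cfsg.L0 Cfsg.H8
open Cfsg.H7 (IsSylowIn UniqMax MinOver IsCharP)
open Cfsg.H9 (RO jt ctr)
open scoped commutatorElement

namespace Cfsg.JTr

variable {G : Type u} [Group G] [Finite G] {p : ℕ} [hp : Fact p.Prime] {P S H M : Subgroup G}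

theorem ro_fix (h : RO p H) (hS : IsSylowIn p S H) (hu : MinOver S H M) {a l : G} (ha : a ∈ S)
    (hQ : a ∉ pCoreOf p H) (hl : l ∈ H) (h1 : l⁻¹ * a * l ∈ M) : l ∈ M := by
  by_contra h2
  obtain ⟨F, _, _, _, Γ, k⟩ := h.lift
  obtain ⟨_, f⟩ := k.exists_frame hS (hS.cj_of_mem (inv_mem hl))
    (hu.sup_cj_eq (inv_mem hl) (by simpa using h2))
  refine hu.not_le (f.gen (x := l⁻¹ * a * l)
    (by simpa using H7.conj_mem_cj (g := l⁻¹) ha) (fun e => hQ ?_) hu.le h1)
  simpa [mul_assoc] using conj_mem_of_mem_normalizer (H7.le_normalizer_pCoreOf p H hl) e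

theorem ro_pow (h : RO p H) (hS : IsSylowIn p S H) {a : G} (ha : a ∈ S) : a ^ p ∈ pCoreOf p H := by
  obtain ⟨F, _, _, _, Γ, k⟩ := h.lift
  obtain ⟨T', h1, h2⟩ := k.exists_gen hS
  obtain ⟨_, f⟩ := k.exists_frame hS h1 h2
  exact f.pow_mem_Q ha

theorem ro_local (hp7 : 7 ≤ p) (h : RO p H) (hS : IsSylowIn p S H) (hu : UniqMax S H M)
    (hJ : ¬ JT 0 S ≤ pCoreOf p H) : ⁅pCoreOf p H, H⁆ ≤ ⁅M, M⁆ := by
  have nQ := H7.le_normalizer_pCoreOf p H
  obtain ⟨A, b⟩ := exists_big hS.isPGroup hS.pCoreOf_le (hS.le.trans nQ) hJ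
  obtain ⟨g, hg, hgQ⟩ := SetLike.not_le_iff_exists.1 b.nle
  have hP := L0.isSyl_iff_isSylowIn.2 hS
  have hAH := b.ab.le.trans hS.le
  have hAM := b.ab.le.trans hu.le
  by_cases hc : A ≤ (A ⊓ pCoreOf p H) ⊔ zpowers g
  · refine local_of_deg hP hu.le hu.lt.le hu.not_le (fun K k1 k2 k3 => hu.max K k1 (k2.lt_of_ne k3))
      fun W w1 w2 w3 _ => ?_
    obtain ⟨Y, y1, y2, y3⟩ := embed b hS.le nQ (𝓐 := {g}) (Set.singleton_subset_iff.2 hg) (β := 4)
      (by omega) (fun W Z s n1 n2 pw _ w hw => ht_single (b.ab.deg_four (by omega) b.pS b.le b.n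
        b.max hg hc s.le (hS.le.trans n1) (hS.le.trans n2) s.zw s.zc s.ct pw hw)) w1 w2 w3
    exact ⟨Y, y1, y2, g, b.ab.le hg, hgQ, fun w hw => ht_ic (j := 0) (𝓐 := {g}) rfl
      (Ht.mono (fun a ha => by rw [ha]; exact y2 (hAH hg)) (by omega) (y3 w hw))⟩
  obtain ⟨k, hk, hkQ⟩ := SetLike.not_le_iff_exists.1 hc
  have mo := hu.minOver hS fun a => h.not_le_Q hS (H7.le_pCoreOf hS.isPGroup hS.le a)
  have pm : ∀ a ∈ A, ∀ l ∈ H, l⁻¹ * a ^ p * l ∈ M := fun a ha l hl => hu.le (hS.pCoreOf_le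
    (conj_mem_of_mem_normalizer' (nQ hl) (ro_pow h hS (b.ab.le ha))))
  have rt : ∀ {U : Subgroup G} {a : G} {i : ℕ}, a ∈ A → a ∉ U → i < p → a ^ i ∈ U → i = 0 :=
    fun {U a i} ha hU hi e => by
      by_contra i0
      obtain ⟨n, hn⟩ := H7.isPGroup_iff_mem.1 hS.isPGroup a (b.ab.le ha)
      exact hU (H7.mem_of_pow_mem_of_pow_mem ((Nat.coprime_of_lt_prime i0 hi hp.out).symm.pow_right n)
        e (hn ▸ one_mem _))
  refine local_of_core hP hu.le hu.lt.le fun W w1 w2 w3 => ?_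
  obtain ⟨Y, y1, y2, y3⟩ := embed b hS.le nQ (𝓐 := A) subset_rfl (β := 6) (by omega)
    (fun W Z s _ _ _ _ w hw => s.six b hw) w1 w2 w3
  refine ⟨Y, y1, y2, fun U u1 u2 u3 u4 u5 => osl_two (M := M) (hAH hg) (hAM hg) (hAH hk) (hAM hk)
    (b.ab.comm hk g hg) (pm g hg) (pm k hk) (fun l hl i hi j hj e => ?_) w2 u1 u2 u3
    ((commutator_mono le_rfl inf_le_left).trans u4) y1.le u5 fun w hw =>
      ht_ic (j := 0) hk (ht_ic hg (Ht.mono (fun a ha => y2 (hAH ha)) (by omega) (y3 w hw)))⟩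
  have m := A.mul_mem (A.pow_mem hk j) (A.pow_mem hg i)
  by_cases c : k ^ j * g ^ i ∈ pCoreOf p H
  swap
  · exact Or.inl (ro_fix h hS mo (b.ab.le m) c hl e)
  have j0 := rt hk hkQ hj (by
    simpa using mul_mem (mem_sup_left (S := A ⊓ pCoreOf p H) (T := zpowers g) ⟨m, c⟩)
      (inv_mem (mem_sup_right (pow_mem (mem_zpowers g) i))))
  rw [j0, pow_zero, one_mul] at c
  exact Or.inr ⟨rt hg hgQ hi c, j0⟩

theorem j_local (hp7 : 7 ≤ p) (hP : IsSylowIn p P ⊤) (hu : UniqMax P ⊤ M)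
    (hc : IsCharP p (⊤ : Subgroup G)) (hJ : ¬ ⊤ ≤ normalizer (JT 0 P : Set G)) :
    ⁅pCore p G, ⊤⁆ ≤ ⁅M, M⁆ := by
  by_cases hCM : centralizer (omegaOneCenter p (pCore p G) : Set G) ≤ M
  · obtain ⟨T, H, h1, h2, h3, h4, h5, h6⟩ := exists_rank_one_cm hP hu hc hCM fun e => hJ (by
      rw [← JT_eq_of_le (JT_le_jt P) inf_le_left]; exact e.trans (normalizer_le_normalizer_JT 0 _))
    have b3 := ro_local hp7 h1 h2 h3 fun e => h3.not_le (le_inf le_rfl (le_trans ?_
      ((hu.eq_or_le (le_normalizer.trans (normalizer_le_normalizer_JT 0 P)) le_top).resolve_left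
        fun a => hJ a.ge)))
    swap
    · rw [← JT_eq_of_le ((JT_le_jt P).trans h4) h6, ← JT_eq_of_le e h2.pCoreOf_le]
      exact (H7.le_normalizer_pCoreOf p H).trans (normalizer_le_normalizer_JT 0 _)
    have b4 : ⁅pCore p G, H⁆ ≤ ⁅M, M⁆ := (commutator_mono (H7.le_pCoreOf (isPGroup_pCore p G)
      (h5.trans h2.le) le_normalizer_of_normal) le_rfl).trans
        (b3.trans (commutator_mono inf_le_right inf_le_right))
    have b5 : M ⊔ H = ⊤ := (hu.eq_or_le (hu.le.trans le_sup_left) le_top).resolve_right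
      fun a => h3.not_le (le_inf le_rfl (le_sup_right.trans a))
    have b6 : ∀ {K : Subgroup G}, ⁅pCore p G, K⁆ ≤ ⁅M, M⁆ → ⁅pCore p G, K⁆ ≤ pCore p G ⊓ ⁅M, M⁆ :=
      fun a => le_inf (H7.commutator_le_left_of_le_normalizer le_normalizer_of_normal) a
    have b7 := b6 (commutator_mono ((h5.trans h6).trans hu.le) (le_refl M))
    rw [← b5]
    exact (H7.commutator_sup_le (H7.le_normalizer_of_commutator_le inf_le_left b7)
      (H7.le_normalizer_of_commutator_le inf_le_left (b6 b4)) b7 (b6 b4)).trans inf_le_right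
  have e := (hu.pResidualOf_le_or_le hP.isPGroup le_top
    (H7.le_normalizer_centralizer le_normalizer_of_normal)).resolve_right hCM
  have hC : ⊤ ≤ centralizer ((pCore p G ⊓ centralizer (pCore p G : Set G) : Subgroup G) : Set G) ⊔
      P := by
    rw [← hP.sup_pResidualOf, sup_comm]
    refine sup_le_sup_right (H7.pResidualOf_le_iff.2 fun x _ hx => ?_) P
    exact mem_centralizer_of_omega (by omega) (isPGroup_pCore p G).to_inf_left
      (le_normalizer_of_normal (mem_top x)) hx fun y hy e2 =>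
        e (H7.mem_pResidualOf trivial hx) y (H7.mem_omegaOneCenter_iff.2 ⟨hy.1, hy.2, e2⟩)
  have hQP : pCore p G ≤ P := H7.pCoreOf_top p G ▸ hP.pCoreOf_le
  obtain ⟨A, b⟩ := exists_big hP.isPGroup hQP le_normalizer_of_normal fun k => hJ (by
    rw [← JT_eq_of_le k hQP]; exact le_normalizer_of_normal.trans (normalizer_le_normalizer_JT 0 _))
  obtain ⟨g, hg, hgQ⟩ := SetLike.not_le_iff_exists.1 b.nle
  have := local_of_deg (L0.isSyl_iff_isSylowIn.2 hP) hu.le le_top hu.not_le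
    (fun K k1 k2 k3 => hu.max K k1 (k2.lt_of_ne k3)) fun W w1 w2 w3 _ => by
      rw [H7.pCoreOf_top] at w1 ⊢
      obtain ⟨Y, y1, y2, y3⟩ := embed b le_top le_normalizer_of_normal (𝓐 := A) subset_rfl (β := 4)
        (by omega) (fun W Z s n1 n2 pw mn w hw => by
          have := H7.normal_of_le_normalizer_top n1
          have := H7.normal_of_le_normalizer_top n2
          exact four_of_cent hp7 b s pw (fun X _ => mn X le_normalizer_of_normal) hC hw) w1 w2 w3
      exact ⟨Y, y1, y2, g, b.ab.le hg, hgQ, fun w hw => ht_ic (j := 0) hg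
        (Ht.mono (fun a _ => y2 (mem_top a)) (by omega) (y3 w hw))⟩
  rwa [H7.pCoreOf_top] at this

variable (p) in
/-- the control family consisting of `N(J)` -/
noncomputable def jFam : CtrlFam.{u} p where
  R b _ _ _ T W := b = false ∧ T ≠ ⊥ ∧ W = JT 0 T
  le := fun h => h.2.2 ▸ JT_le 0 _
  ne_bot := fun hT h => h.2.2 ▸ JT_ne_bot hT (dvd_zero p) h.2.1
  norm := fun h => h.2.2 ▸ normalizer_le_normalizer_JT 0 _
  cn := fun h => by rw [h.1, h.2.2]; exact le_normalizer.trans (normalizer_le_normalizer_JT 0 _)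
  map := fun {b} _ _ _ _ _ _ f T _ hf h => ⟨h.1, fun e => h.2.1 (by
      rw [← hf, left_eq_inf, ← Subgroup.map_eq_bot_iff]; exact e), by
    rw [h.2.2]; exact map_JT hf⟩
  comap := fun {b} _ _ _ _ _ _ f T _ hf h => ⟨_, ⟨h.1, fun e => h.2.1 (by
      rw [e, Subgroup.map_bot]), rfl⟩, by
    rw [h.2.2]; exact map_JT hf⟩

theorem jFam_local (hp7 : 7 ≤ p) : (jFam.{u} p).Local := fun G _ _ P M hP h1 h2 h3 h4 h5 => by
  have hP' := L0.isSyl_iff_isSylowIn.1 hP
  by_cases h0 : P = ⊥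
  · rw [le_bot_iff.1 (h0 ▸ H7.pCoreOf_top p G ▸ hP'.pCoreOf_le : pCore p G ≤ ⊥),
      commutator_bot_left]
    exact bot_le
  exact j_local hp7 hP' ⟨h1, h2.lt_top, fun K k1 k2 => h3 K k1 k2.ne⟩ (H7.isCharP_top_iff.2 h4)
    fun e => h5 false _ ⟨rfl, h0, rfl⟩ (top_le_iff.1 e)

theorem j_transfer (hp7 : 7 ≤ p) (hP : IsSyl p P ⊤) :
    P ⊓ ⁅(⊤ : Subgroup G), ⊤⁆ ≤ ⁅normalizer (JT 0 P : Set G), normalizer (JT 0 P : Set G)⁆ :=
  have e := le_normalizer.trans (normalizer_le_normalizer_JT 0 P)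
  (jFam_local hp7).transfer hP (commutator_mono e e) fun b W k => by
    rw [k.1, k.2.2]; exact inf_le_right.trans (commutator_mono inf_le_right inf_le_right)

theorem inf_res_le (hP : IsPGroup p P) : P ⊓ pResidual p G ≤ ⁅(⊤ : Subgroup G), ⊤⁆ := by
  intro x hx
  let f := Abelianization.of (G := G)
  let U : Subgroup G := mkSub {y | (orderOf (f y)).Coprime p} (by simp) fun a ha b hb => by
    rw [Set.mem_ofPred_eq, map_mul]
    exact (Nat.Coprime.mul_left ha hb).coprime_dvd_left (Commute.all _ _).orderOf_mul_dvd_mul_orderOf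
  have h1 : pResidual p G ≤ U := H7.pResidual_le_iff.2 fun y hy =>
    hy.coprime_dvd_left (orderOf_map_dvd f y)
  obtain ⟨k, hk⟩ := H7.isPGroup_iff_mem.1 hP x hx.1
  have h2 : x ∈ f.ker := eq_one_of_pElt_of_coprime ⟨k, by rw [← map_pow, hk, map_one]⟩ (h1 hx.2)
  rwa [Abelianization.ker_of] at h2

/-- Tate's theorem for an overgroup of a Sylow subgroup. -/
theorem tate_iso (hP : IsSylowIn p P ⊤) (hPM : P ≤ M) (h : P ⊓ ⁅(⊤ : Subgroup G), ⊤⁆ ≤ ⁅M, M⁆) :
    Nonempty (G ⧸ pResidual p G ≃* M ⧸ pResidual p M) := by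
  set K := pResidual p G
  have hMK : M ⊔ K = ⊤ := top_le_iff.1 (hP.sup_pResidualOf.ge.trans
    (sup_le_sup hPM (H7.pResidualOf_top p G).le))
  let π0 := QuotientGroup.mk' (pResidual p M)
  let ρ0 : M ⧸ pResidual p M →* G ⧸ K := QuotientGroup.lift _
    ((QuotientGroup.mk' K).comp M.subtype) fun x hx =>
      (QuotientGroup.eq_one_iff _).2 (H7.pResidualOf_le_pResidual p M (mem_map_of_mem _ hx))
  have hQ0 := H7.isPGroup_quotient_pResidual p M
  refine ⟨(MulEquiv.ofBijective ρ0 ⟨?_, fun q => ?_⟩).symm⟩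
  swap
  · obtain ⟨g, rfl⟩ := QuotientGroup.mk'_surjective K q
    obtain ⟨k, hk, m, hm, rfl⟩ := (mem_sup_of_le_normalizer_left le_normalizer_of_normal).1
      ((sup_comm M K ▸ hMK).ge (mem_top g))
    refine ⟨π0 ⟨m, hm⟩, ?_⟩
    rw [map_mul, QuotientGroup.mk'_apply K k, (QuotientGroup.eq_one_iff k).2 hk, one_mul]
    rfl
  rw [← MonoidHom.ker_eq_bot_iff]
  by_contra hb
  have lt := commutator_lt_of_isPGroup (hQ0.to_subgroup ⊤) (hQ0.to_subgroup ρ0.ker)
    le_normalizer_of_normal hb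
  set E := ⁅ρ0.ker, (⊤ : Subgroup (M ⧸ pResidual p M))⁆
  let ρ := QuotientGroup.lift E ρ0 fun x hx => lt.le hx
  let π := (QuotientGroup.mk' E).comp π0
  have hπ : Function.Surjective π :=
    (QuotientGroup.mk'_surjective E).comp (QuotientGroup.mk'_surjective _)
  have hc : ρ.ker ≤ center _ := fun z hz => by
    obtain ⟨z, rfl⟩ := QuotientGroup.mk'_surjective _ z
    refine mem_center_iff.2 fun y => ?_
    obtain ⟨y, rfl⟩ := QuotientGroup.mk'_surjective _ y
    rw [eq_comm, ← commutatorElement_eq_one_iff_mul_comm, ← map_commutatorElement]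
    exact (QuotientGroup.eq_one_iff _).2 (commutator_mem_commutator hz (mem_top y))
  obtain ⟨B, b1, b2⟩ := H1.tate_aux (P := M) (K := K) (fun e => hP.not_dvd_relIndex (by
      rw [relIndex_top_right]; exact e.trans (index_dvd_of_le hPM)))
    (H7.pResidualOf_pResidual p G) hMK (hQ0.to_quotient E) π ρ (fun _ => rfl) hc
  have b3 : ⁅(⊤ : Subgroup ((M ⧸ pResidual p M) ⧸ E)), ⊤⁆ ≤ B := by
    have z : ∀ U, ⁅U, ρ.ker⁆ ≤ B := fun U => H7.commutator_le_of_le_centralizer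
      (hc.trans fun x hx y _ => mem_center_iff.1 hx y)
    have n : ρ.ker ≤ normalizer (B : Set _) := H7.le_normalizer_of_le_centralizer
      (hc.trans fun x hx y _ => mem_center_iff.1 hx y)
    rw [← b2]
    refine H7.commutator_sup_le le_normalizer n (H7.sup_commutator_le le_normalizer n
      (commutator_le_self B) ?_) (z _)
    rw [commutator_comm]; exact z _
  have s1 := ((hP.mono hPM le_top).inf_of_le_normalizer (N := K) le_normalizer_of_normal)
  refine lt.not_ge fun z hz => ?_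
  obtain ⟨m, rfl⟩ := QuotientGroup.mk'_surjective _ z
  have m1 : (m : G) ∈ M ⊓ K := ⟨m.2, (QuotientGroup.eq_one_iff _).1 hz⟩
  have k : M ⊓ K ≤ (B.comap π).map M.subtype := by
    rw [← s1.sup_pResidualOf]
    refine sup_le ((le_inf inf_le_left (inf_res_le hP.isPGroup)).trans (h.trans ?_))
      ((H7.pResidualOf_mono inf_le_left).trans (map_mono fun x hx => ?_))
    · refine commutator_le.2 fun x hx y hy => ⟨⁅(⟨x, hx⟩ : M), ⟨y, hy⟩⁆, b3 ?_, rfl⟩
      rw [map_commutatorElement]; exact commutator_mem_commutator trivial trivial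
    · rw [mem_comap, show π x = 1 from by
        rw [MonoidHom.comp_apply, show π0 x = 1 from (QuotientGroup.eq_one_iff x).2 hx, map_one]]
      exact one_mem _
  obtain ⟨y, hy, e⟩ := k m1
  rw [show y = m from Subtype.ext e] at hy
  exact (QuotientGroup.eq_one_iff _).1 (mem_bot.1 (b1.le (⟨hy, hz⟩ : π m ∈ B ⊓ ρ.ker)))

theorem thompson_transfer (hp7 : 7 ≤ p) (S : Sylow p G) :
    Nonempty (G ⧸ pResidual p G ≃* normalizer (JT 0 (S : Subgroup G) : Set G) ⧸
      pResidual p (normalizer (JT 0 (S : Subgroup G) : Set G))) :=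
  tate_iso (H7.isSylowIn_top S) (le_normalizer.trans (normalizer_le_normalizer_JT 0 _))
    (j_transfer hp7 (isSyl_sylow S))

end Cfsg.JTr
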