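import Cfsg.Agent.H7.LC14
import Cfsg.Prelude.Def_Quasithin

/-! Pushing up in groups of even characteristic: a common normal subgroup of two subgroups over a
Sylow `2`-subgroup. -/

namespace Cfsg.H7

open Subgroup
open Cfsg.H9 (Zp)
open scoped commutatorElement

universe u

variable {G : Type u} [Group G] [Finite G] {T M M₀ B N H L P R X Y : Subgroup G} {g : G}

/-- even characteristic, relative to the Sylow subgroup `T` -/
structure EC (T : Subgroup G) : Prop where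
  syl : IsSylowIn 2 T ⊤
  char : ∀ {X Y : Subgroup G}, T ≤ X → IsPGroup 2 Y → Y ≠ ⊥ → X ≤ normalizer (Y : Set G) →
    IsCharP 2 X

theorem ec_of (h : IsOfEvenCharacteristic G) (T : Sylow 2 G) : EC (T : Subgroup G) :=
  ⟨isSylowIn_top T, fun h1 h2 h3 h4 => (isCharP_iff.mpr
    (h _ ⟨_, h2, h3, rfl⟩ ⟨T, h1.trans h4⟩)).of_pCoreOf_le h4
      ((pCoreOf_le_sylow T (h1.trans h4)).trans h1)⟩

omit [Finite G] in
theorem oddGenerated_eq (H : Subgroup G) : oddGenerated H = pResidualOf 2 H := by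
  rw [pResidualOf_eq_closure, oddGenerated]
  simp only [Nat.coprime_two_right]

theorem IsMB.inf_CZ (h : IsMB 2 B N) : B ⊓ centralizer (Zp 2 N : Set G) = pCoreOf 2 N := by
  obtain ⟨F, _, _, _, Z, Z₀, C, X, m⟩ := h
  exact m.hZ ▸ m.inf_CZ

theorem IsMB.syl (h : IsMB 2 B N) : IsSylowIn 2 B N := by
  obtain ⟨F, _, _, _, Z, Z₀, C, X, m⟩ := h
  exact m.syl

theorem IsMB.W_le_Z (h : IsMB 2 B N) : bW 2 (pResidualOf 2 N) ≤ Zp 2 N := by
  obtain ⟨F, _, _, _, Z, Z₀, C, X, m⟩ := h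
  exact m.hZ ▸ m.W_le_Z

theorem IsMB.cQ (h : IsMB 2 B N) : ⁅pCoreOf 2 N, pResidualOf 2 N⁆ = bW 2 (pResidualOf 2 N) := by
  obtain ⟨F, _, _, _, Z, Z₀, C, X, m⟩ := h
  rw [← m.QE, Blk.W_eq_two m.blk rfl]

theorem IsMB.inf_le (h : IsMB 2 B N) (hP : IsPGroup 2 P) (hn : N ≤ normalizer (P : Set G)) :
    P ⊓ B ≤ centralizer (Zp 2 N : Set G) :=
  ((inf_le_inf_left P h.syl.le).trans (inf_le_pCoreOf hP hn)).trans (h.inf_CZ.ge.trans inf_le_right)

theorem IsMB.conj' (h : IsMB 2 B N) (hg : g ∈ normalizer (B : Set G)) : IsMB 2 B (cj g N) :=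
  cj_eq_of_mem_normalizer hg ▸ h.conj g

theorem IsMB.tz' (h : IsMB 2 B N) (hg : g ∈ normalizer (B : Set G)) :
    TZ B (cj g (Zp 2 N)) (pResidualOf 2 (cj g N)) := by
  rw [Zp, cj_omegaOneCenter, cj_pCoreOf]; exact (h.conj' hg).tz

theorem exists_block (hR : IsSylowIn 2 R L) (hL : IsCharP 2 L) (h1 : ¬ L ≤ M)
    (h2 : ∀ C ≤ R, C ≠ ⊥ → (C.subgroupOf R).Characteristic → L ⊓ normalizer (C : Set G) ≤ M) :
    ∃ N ≤ L, IsMB 2 (baumannSubgroupOf 2 R) N ∧ ¬ pResidualOf 2 N ≤ M ∧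
      ⁅pCoreOf 2 L, pResidualOf 2 N⁆ ≤ bW 2 (pResidualOf 2 N) ∧
      bW 2 (pResidualOf 2 N) ≤ pCoreOf 2 L := by
  have hi := L.subtype_injective
  have e0 := map_subgroupOf_eq_of_le hR.le
  have e1 : (baumannSubgroupOf 2 (R.subgroupOf L)).map L.subtype = baumannSubgroupOf 2 R := by
    rw [map_B hi, e0]
  have r0 : R ≠ ⊥ := ne_bot_of_le hR.pCoreOf_le (hL.pCoreOf_ne_bot fun e => h1 (e ▸ bot_le))
  have h : Hyp 2 (R.subgroupOf L) (M.subgroupOf L) := by
    refine ⟨subgroupOf_self L ▸ hR.subgroupOf le_rfl, isCharP_iff.mp hL, ?_, fun C c1 c2 c3 => ?_,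
      fun e => h1 (subgroupOf_eq_top.mp e)⟩
    · rw [← map_le_iff_sub, map_centralizer_subgroup, map_ΩZ hi, e0]
      exact (inf_le_inf_left _ (centralizer_le_normalizer _)).trans (h2 _ (omegaOneCenter_le _ _)
        (omegaOneCenter_ne_bot hR.isPGroup r0) (char_ΩZ 2 R))
    · rw [← map_le_iff_sub, map_normalizer_subgroup]
      have c4 : C.map L.subtype ≤ baumannSubgroupOf 2 R := e1 ▸ map_mono c1
      exact h2 _ (c4.trans (H9.B_le 2 R)) (mt (map_eq_bot_iff_of_injective _ hi).mp c2)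
        (char_trans c4 (H9.B_le 2 R) (e1 ▸ char_map_inj hi c1 c3) (char_B 2 R))
  obtain ⟨N, -, m, h3, -⟩ := h.exists_mb le_top fun e => h.ne (top_le_iff.mp e)
  have b := h.blk m.good.blk h3
  refine ⟨N.map L.subtype, map_subtype_le N, e1 ▸ (isMB_map_iff hi).mpr m, ?_, ?_, ?_⟩ <;>
    rw [← map_pResidualOf_of_injective hi]
  · rwa [map_le_iff_sub]
  · rw [← map_bW hi, ← pCoreOf_def, ← map_commutator]
    exact map_mono (Blk.cO_le h.syl b (inf_le_right.trans (Blk.Q_eq_two b rfl).le))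
  · rw [← map_bW hi]
    exact map_mono (Blk.W_le_O h.syl b h.char)

omit [Finite G] in
theorem le_normalizer_biSup (A : Subgroup G) (U : Subgroup G) :
    A ≤ normalizer ((⨆ g ∈ A, cj g U : Subgroup G) : Set G) :=
  le_normalizer_iff_cj.mpr fun a ha => by
    rw [cj_le_iff]
    refine iSup₂_le fun g hg => ?_
    rw [← cj_le_iff, ← cj_mul]
    exact le_iSup₂_of_le (a * g) (mul_mem ha hg) le_rfl

omit [Finite G] in
theorem not_cent_cj {U V : Subgroup G} (g : G) (h : ¬ U ≤ centralizer (V : Set G)) :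
    ¬ cj g U ≤ centralizer (cj g V : Set G) := by rwa [← cj_centralizer, cj_le_cj_iff]

theorem IsMB.eq_of (h : IsMB 2 B N) {a b c : G} (ha : a ∈ normalizer (B : Set G))
    (hb : b ∈ normalizer (B : Set G)) (hc : c ∈ normalizer (B : Set G))
    (h1 : ¬ cj b (Zp 2 N) ≤ centralizer (cj a (Zp 2 N) : Set G))
    (h2 : ¬ cj c (Zp 2 N) ≤ centralizer (cj a (Zp 2 N) : Set G)) :
    cj b (Zp 2 N) = cj c (Zp 2 N) :=
  le_antisymm ((h.tz' ha).unique (h.tz' hc) h2 (h.tz' hb) h1)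
    ((h.tz' ha).unique (h.tz' hb) h1 (h.tz' hc) h2)

theorem EC.common (h : EC T) (h1 : T ≤ M₀) (hH : IsCharP 2 H) (um : UniqMax T H M) (h2 : R ≤ T)
    (h3 : IsSylowIn 2 R (pResidualOf 2 H ⊔ R)) (h4 : M₀ ≤ normalizer (R : Set G)) :
    ∃ R₀, R₀ ≠ ⊥ ∧ R₀ ≤ R ∧ M₀ ⊔ H ≤ normalizer (R₀ : Set G) := by
  by_contra hn
  have key : ∀ U, U ≠ ⊥ → U ≤ R → M₀ ≤ normalizer (U : Set G) → H ⊓ normalizer (U : Set G) ≤ M :=
    fun U u1 u2 u3 => um.inf_le (h1.trans u3) fun u4 => hn ⟨U, u1, u2, sup_le u3 u4⟩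
  have TH : T ≤ H := um.le.trans um.lt.le
  have sH := h.syl.mono TH le_top
  set L := pResidualOf 2 H ⊔ R with hL
  have LH : L ≤ H := sup_le (pResidualOf_le 2 H) (h2.trans TH)
  have nL : H ≤ normalizer (L : Set G) := sH.sup_pResidualOf.ge.trans (sup_le (le_normalizer_sup
    (TH.trans (le_normalizer_pResidualOf 2 H)) (h1.trans h4)) (le_normalizer_of_le le_sup_left))
  obtain ⟨N, NL, m, f1, f2, f3⟩ := exists_block (M := M) h3 (hH.of_normal LH nL)
    (fun e => um.not_le (sH.sup_pResidualOf.ge.trans (sup_le um.le (le_sup_left.trans e))))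
    fun C c1 c2 c3 => (inf_le_inf_right _ LH).trans (key C c2 c1 (h4.trans (norm_le_of_char c1 c3)))
  set B := baumannSubgroupOf 2 R
  set F := pResidualOf 2 N with hF
  set W := bW 2 F
  set Z := Zp 2 N with hZ
  have b := m.good.blk
  have nB : M₀ ≤ normalizer (B : Set G) := h4.trans (H9.normalizer_le_normalizer_B 2 R)
  have BR : B ≤ R := H9.B_le 2 R
  have WB : W ≤ B := m.W_le_Z.trans m.tz.le
  have FH : F ≤ H := (pResidualOf_le 2 N).trans (NL.trans LH)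
  have gen : ∀ X, T ≤ X → F ≤ X → H ≤ X := fun X x1 x2 =>
    um.le_of_not_le x1 fun e => f1 ((le_inf FH x2).trans e)
  -- a conjugate of `Z` not centralizing `W`
  obtain ⟨d, hd, d1⟩ : ∃ d ∈ M₀, ¬ W ≤ centralizer (cj d Z : Set G) := by
    by_contra! e
    have u1 : W ≤ ⨆ g ∈ M₀, cj g W := le_iSup₂_of_le 1 (one_mem _) (cj_one W).ge
    have u2 : ⨆ g ∈ M₀, cj g W ≤ pCoreOf 2 N := iSup₂_le fun g hg => m.inf_CZ ▸ le_inf
      (cj_le_of_le (nB hg) WB) (by simpa [← cj_mul] using cj_le_centralizer_cj g (e _ (inv_mem hg)))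
    exact f1 ((le_inf FH (le_normalizer_of_commutator_le u2 (m.cQ.le.trans u1))).trans (key _
      (ne_bot_of_le u1 m.good.W_ne) (u2.trans (m.syl.pCoreOf_le.trans BR)) (le_normalizer_biSup _ _)))
  have z1 : cj 1 Z = Z := cj_one Z
  have d2 : ¬ Z ≤ centralizer (cj d Z : Set G) := fun e => d1 (m.W_le_Z.trans e)
  have d3 : ¬ cj d Z ≤ centralizer (Z : Set G) := mt le_centralizer_iff.mp d2
  have d4 : d ^ 2 ∈ normalizer (Z : Set G) := by
    have := m.eq_of (one_mem _) (nB hd) (nB (inv_mem hd)) (z1.symm ▸ d3)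
      (by simpa [← cj_mul] using not_cent_cj d⁻¹ d2)
    rw [mem_normalizer_iff_cj, pow_two, cj_mul, this, ← cj_mul, mul_inv_cancel, cj_one]
  obtain ⟨s, hs, o, ho, s1, o1, e1⟩ := exists_pPart_mul_pPrimePart 2 (orderOf_pos d).ne'
  have e2 : cj s Z = cj d Z := by
    obtain ⟨i, rfl⟩ := ho
    rw [← e1, cj_mul, cj_eq_of_mem_normalizer (mem_of_pow_mem_of_coprime o1 (by
      rw [← zpow_natCast, ← zpow_mul, mul_comm, zpow_mul, zpow_natCast]; exact zpow_mem d4 i))]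
  obtain ⟨a, ha, t₀⟩ := (h.syl.mono h1 le_top).exists_conj_mem s1 (zpowers_le.mpr hd hs)
  have y1 : ¬ cj (a * s * a⁻¹ * a) Z ≤ centralizer (cj a Z : Set G) := by
    rw [inv_mul_cancel_right, cj_mul, e2]; exact not_cent_cj a d3
  have y2 : ∀ t ∈ T, ¬ cj (t * (a * s * a⁻¹) * t⁻¹) (cj (t * a) Z) ≤
      centralizer (cj (t * a) Z : Set G) := fun t _ => by
    rw [← cj_mul, show t * (a * s * a⁻¹) * t⁻¹ * (t * a) = t * (a * s * a⁻¹ * a) by group, cj_mul t,
      cj_mul t]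
    exact not_cent_cj t y1
  have y3 : ∀ t ∈ T, cj t Z ≠ cj d Z := fun t ht e => d1 (by
    rw [← e, hZ, H9.cj_Zp]
    exact (le_inf f3 WB).trans ((m.conj' (nB (h1 ht))).inf_le (isPGroup_pCoreOf 2 L)
      ((cj_le_of_le (nL (TH ht)) NL).trans (le_normalizer_pCoreOf 2 L))))
  have y4 : ∀ t ∈ T, cj t (cj a Z) ≤ B ⊓ centralizer (Z : Set G) ⊓ centralizer (cj d Z : Set G) :=
    fun t ht => by
      have m1 := nB (mul_mem (h1 ht) ha)
      have m2 := mul_mem (mul_mem ht t₀) (inv_mem ht)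
      have m3 := mul_mem (nB (h1 m2)) m1
      have := y2 t ht
      rw [← cj_mul]
      refine le_inf (le_inf (m.tz' m1).le (by_contra fun e => ?_)) (by_contra fun e => ?_)
      · have e3 := m.eq_of (one_mem _) m1 (nB hd) (z1.symm ▸ e) (z1.symm ▸ d3)
        have e4 := m.eq_of m1 m3 (one_mem _) (cj_mul _ _ Z ▸ this) (by rwa [e3, z1])
        rw [cj_mul, e3, z1] at e4
        exact y3 _ (inv_mem m2) ((congrArg _ e4.symm).trans
          (by rw [← cj_mul, inv_mul_cancel, cj_one]))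
      · have e3 := m.eq_of (nB hd) m1 (one_mem _) e (z1.symm ▸ d2)
        have e4 := m.eq_of m1 m3 (nB hd) (cj_mul _ _ Z ▸ this) (by rwa [e3, z1])
        rw [cj_mul, e3, z1] at e4
        exact y3 _ m2 e4
  set U := ⨆ t ∈ T, cj t (cj a Z)
  have u1 : U ≤ B ⊓ centralizer (Z : Set G) ⊓ centralizer (cj d Z : Set G) := iSup₂_le y4
  have u2 : U ≤ T := u1.trans (inf_le_left.trans (inf_le_left.trans (BR.trans h2)))
  have nU : T ≤ normalizer (U : Set G) := le_normalizer_biSup _ _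
  obtain ⟨z, hz, z2, z3, z4⟩ := exists_central_elem (R := ⁅U, U⁆) (h.syl.isPGroup.to_le
    ((commutator_le_left_of_le_normalizer le_normalizer).trans u2)) h.syl.isPGroup
    (le_normalizer_commutator nU nU) fun e => y1 (by
      rw [cj_mul]
      exact (le_iSup₂_of_le _ t₀ le_rfl : _ ≤ U).trans ((commutator_eq_bot_iff_le_centralizer.mp e).trans
        (centralizer_anti (le_iSup₂_of_le 1 (one_mem _) (cj_one _).ge))))
  have c1 : F ≤ centralizer {z} := le_centralizer_singleton_iff.mpr (commutator_le.mpr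
    (fun x hx y hy => m.tz.cc (u1 hx).1 (u1 hy).1) hz)
  have c2 : pResidualOf 2 (cj d N) ≤ centralizer {z} := le_centralizer_singleton_iff.mpr
    (commutator_le.mpr (fun x hx y hy => (m.tz' (nB hd)).cc ⟨(u1 hx).1.1, (u1 hx).2⟩
      ⟨(u1 hy).1.1, (u1 hy).2⟩) hz)
  have c3 : T ≤ centralizer {z} := le_centralizer_singleton_iff.mpr z3
  have cX : IsCharP 2 (centralizer {z}) := h.char c3 (isPGroup_zpowers ⟨1, z4⟩)
    (ne_bot_of_mem (mem_zpowers z) z2)
    (centralizer_zpowers z ▸ centralizer_le_normalizer _)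
  set Q := pCoreOf 2 (centralizer {z})
  have pQ : IsPGroup 2 Q := isPGroup_pCoreOf 2 _
  have nQ : centralizer {z} ≤ normalizer (Q : Set G) := le_normalizer_pCoreOf 2 _
  have q1 : Q ≤ pCoreOf 2 H := le_pCoreOf pQ ((h.syl.mono c3 le_top).pCoreOf_le.trans TH)
    ((gen _ c3 c1).trans nQ)
  have q2 : ⁅Q, F⁆ ≤ Q := commutator_le_left_of_le_normalizer (c1.trans nQ)
  have q3 := Blk.cc b pQ (c1.trans nQ)
  have q4 : ⁅Q, F⁆ ≤ W := q3.ge.trans ((commutator_mono ((le_inf (q2.trans q1)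
    ((commutator_mono le_rfl ((pResidualOf_le 2 N).trans NL)).trans
      (commutator_le_right_of_le_normalizer (q1.trans ((pCoreOf_le 2 H).trans nL))))).trans (pCoreOf_inf_le LH)) le_rfl).trans f2)
  have q5 : W ≤ Q := ((Blk.irr b (q4.trans (bW_le 2 F)) (normalizer_commutator_ge_right _ _)).resolve_left
    fun e => f1 (by
      rw [commutator_eq_bot_iff_le_centralizer.mpr e, eq_comm, commutator_eq_bot_iff_le_centralizer,
        le_centralizer_iff] at q3
      exact ((Blk.res b).symm.trans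
        (pResidualOf_eq_bot_of_isPGroup (cX.isPGroup c1 q3))).le.trans bot_le)).trans q2
  refine d1 ((le_inf q5 WB).trans ?_)
  rw [hZ, H9.cj_Zp]
  exact (m.conj' (nB hd)).inf_le pQ (((m.conj' (nB hd)).syl.sup_pResidualOf.ge.trans
    (sup_le (BR.trans (h2.trans c3)) c2)).trans nQ)

end Cfsg.H7
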