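import Mathlib

/-! Counting lemmas for rank 3 recognitions: invariant sets, equivariant maps, graph automorphisms. -/

set_option autoImplicit false

open MulAction Finset

namespace Cfsg.H7.R3

theorem dvd_of_cls {α : Type*} (s : Setoid α) (m c : ℕ) (E : Finset α)
    (hE : ∀ x ∈ E, ∀ y, s y x → y ∈ E) (h : ∀ x ∈ E, m ∣ c * {y | s y x}.ncard) :
    m ∣ c * E.card := by
  classical
  rw [card_eq_sum_card_image (Quotient.mk s) E, mul_sum]
  refine dvd_sum fun q hq => ?_
  obtain ⟨x, hx, rfl⟩ := mem_image.1 hq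
  suffices e : #{a ∈ E | Quotient.mk s a = Quotient.mk s x} = {y | s y x}.ncard from e ▸ h x hx
  rw [← Set.ncard_coe_finset]
  congr 1
  ext y
  simp only [coe_filter, Set.mem_ofPred_eq, Quotient.eq]
  exact ⟨fun a => a.2, fun a => ⟨hE x hx y a, a⟩⟩

variable {H α β : Type*} [Group H] [MulAction H α] [MulAction H β]

/-- the finite set `E` is invariant under `L` -/
def Inv (L : Subgroup H) (E : Finset α) : Prop := ∀ g ∈ L, ∀ x ∈ E, g • x ∈ E

theorem Inv.mono {L K : Subgroup H} {E : Finset α} (h : Inv K E) (l : L ≤ K) : Inv L E :=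
  fun g a => h g (l a)

theorem Inv.inter [DecidableEq α] {L : Subgroup H} {E F : Finset α} (h : Inv L E) (k : Inv L F) :
    Inv L (E ∩ F) := fun g a x b =>
  mem_inter.2 ⟨h g a x (mem_inter.1 b).1, k g a x (mem_inter.1 b).2⟩

theorem ncard_orbit (J : Subgroup H) (x : α) :
    (orbit J x).ncard = (stabilizer H x).relIndex J := by
  rw [← index_stabilizer]; rfl

theorem dvd_of_orb (L : Subgroup H) (m c : ℕ) (E : Finset α) (hE : Inv L E)
    (h : ∀ x ∈ E, m ∣ c * (stabilizer H x).relIndex L) : m ∣ c * E.card :=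
  dvd_of_cls (orbitRel L α) m c E (fun x hx _ ⟨g, e⟩ => e ▸ hE g g.2 x hx) fun x hx =>
    ncard_orbit L x ▸ h x hx

theorem exists_orb (p : ℕ) (L : Subgroup H) (E : Finset α) (hE : Inv L E) (h : ¬ p ∣ E.card) :
    ∃ x ∈ E, ¬ p ∣ (stabilizer H x).relIndex L := by
  by_contra! hc
  exact h (by simpa using dvd_of_orb L p 1 E hE (by simpa using hc))

/-- `O` is an orbit of `J` of length `n` -/
structure IsO (J : Subgroup H) (O : Finset α) (n : ℕ) : Prop where
  card : O.card = n
  inv : Inv J O
  idx : ∀ x ∈ O, (stabilizer H x).relIndex J = n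

theorem IsO.dvd {J L : Subgroup H} {O E : Finset α} {n : ℕ} [DecidableEq α] (h : IsO J O n)
    (hL : L ≤ J) (hE : Inv L E) : n ∣ L.relIndex J * (E ∩ O).card :=
  dvd_of_orb L n _ _ (hE.inter (h.inv.mono hL)) fun x hx => by
    rw [← h.idx x (mem_inter.1 hx).2, mul_comm, ← Subgroup.inf_relIndex_right _ L,
      Subgroup.relIndex_mul_relIndex _ L J inf_le_right hL]
    exact Subgroup.relIndex_dvd_of_le_left J inf_le_left

theorem IsO.le {J : Subgroup H} {O : Finset α} {n : ℕ} [DecidableEq α] (h : IsO J O n)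
    (E : Finset α) : (E ∩ O).card ≤ n := h.card ▸ card_le_card inter_subset_right

theorem IsO.sub {J : Subgroup H} {O E : Finset α} {n : ℕ} [DecidableEq α] (h : IsO J O n)
    (e : (E ∩ O).card = n) : O ⊆ E := by
  rw [← eq_of_subset_of_card_le (inter_subset_right : E ∩ O ⊆ O) (by rw [e, h.card])]
  exact inter_subset_left

/-- an invariant set containing a long orbit -/
theorem isO_of {J : Subgroup H} {O : Finset α} {n : ℕ} (hi : Inv J O) {x : α} (hx : x ∈ O)
    (hc : O.card ≤ n) (hn : n ≤ (orbit J x).ncard) : IsO J O n ∧ ∀ y ∈ O, y ∈ orbit J x := by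
  have s : orbit J x ⊆ O := fun _ ⟨g, e⟩ => e ▸ hi g g.2 x hx
  have l := Set.ncard_le_ncard s O.finite_toSet
  rw [Set.ncard_coe_finset] at l
  have e := Set.eq_of_subset_of_ncard_le s (by rw [Set.ncard_coe_finset]; omega) O.finite_toSet
  refine ⟨⟨by omega, hi, fun y hy => ?_⟩, fun y hy => e ▸ hy⟩
  rw [← ncard_orbit, orbit_eq_iff.2 (e ▸ hy : y ∈ orbit J x)]; omega

theorem relIndex_smul (h : H) (x : α) (y : β) :
    (stabilizer H (h • y)).relIndex (stabilizer H (h • x)) =
      (stabilizer H y).relIndex (stabilizer H x) := by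
  rw [stabilizer_smul_eq_stabilizer_map_conj, stabilizer_smul_eq_stabilizer_map_conj]
  exact Subgroup.relIndex_map_map_of_injective _ _ (MulAut.conj h).injective

theorem relIndex_symm {K J : Subgroup H} (e : K.index = J.index) (h0 : J.index ≠ 0) :
    (K ⊓ J).relIndex J = J.relIndex K := by
  have a := Subgroup.relIndex_mul_index (inf_le_left : K ⊓ J ≤ K)
  have b := Subgroup.relIndex_mul_index (inf_le_right : K ⊓ J ≤ J)
  rw [Subgroup.inf_relIndex_left, e, ← b] at a
  exact (Nat.eq_of_mul_eq_mul_right (Nat.pos_of_ne_zero h0) a).symm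

theorem eq_of_le_index {K J : Subgroup H} (l : K ≤ J) (e : K.index = J.index) (h0 : J.index ≠ 0) :
    K = J := by
  have a := Subgroup.relIndex_mul_index l
  rw [e] at a
  exact l.antisymm (Subgroup.relIndex_eq_one.1
    (Nat.eq_of_mul_eq_mul_right (Nat.pos_of_ne_zero h0) (by rw [a, one_mul])))

theorem exists_eqv {x : α} {y : β} (e : stabilizer H x = stabilizer H y) :
    ∃ f : α → β, (∀ h : H, f (h • x) = h • y) ∧ Set.InjOn f (orbit H x) := by
  classical
  have k : ∀ g h : H, g • x = h • x ↔ g • y = h • y := fun g h => by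
    rw [← inv_smul_eq_iff, ← inv_smul_eq_iff, smul_smul, smul_smul, ← mem_stabilizer_iff, e,
      mem_stabilizer_iff]
  have a : ∀ h : H, (fun u => if hu : u ∈ orbit H x then hu.choose • y else y) (h • x) = h • y :=
    fun h => by
      have hu : h • x ∈ orbit H x := ⟨h, rfl⟩
      simp only [dif_pos hu]
      exact (k _ _).1 hu.choose_spec
  refine ⟨fun u => if hu : u ∈ orbit H x then hu.choose • y else y, a, ?_⟩
  rintro _ ⟨g, rfl⟩ _ ⟨h, rfl⟩ q
  exact (k g h).2 ((a g).symm.trans (q.trans (a h)))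

section count

variable {γ : Type*} (r : γ → γ → Prop) [DecidableRel r]

theorem dbl (A B : Finset γ) (hs : ∀ u v, r u v → r v u) (m n : ℕ)
    (hA : ∀ u ∈ A, (B.filter (r u)).card = m) (hB : ∀ v ∈ B, (A.filter (r v)).card = n) :
    A.card * m = B.card * n := by
  have := sum_card_bipartiteAbove_eq_sum_card_bipartiteBelow (s := A) (t := B) r
  unfold bipartiteAbove bipartiteBelow at this
  rw [sum_congr rfl (g := fun _ => m) fun u hu => hA u hu, sum_congr rfl (g := fun _ => n)
    fun v hv => (congrArg card (filter_congr fun u _ => ⟨hs _ _, hs _ _⟩)).trans (hB v hv)] at this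
  simpa using this

/-- the variance bound for a regular induced subgraph `T` of `D` -/
theorem variance [DecidableEq γ] (D T : Finset γ) (hT : T ⊆ D) (hs : ∀ u v, r u v → r v u)
    (k d w : ℕ) (hk : ∀ t ∈ T, (D.filter (r t)).card = k) (hd : ∀ t ∈ T, (T.filter (r t)).card = d)
    (hw : ∀ t ∈ T, ∑ t' ∈ T, (D.filter fun v => r t v ∧ r t' v).card = w) :
    (T.card * (k - d)) ^ 2 + (D.card - T.card) * (T.card * d ^ 2) ≤
      (D.card - T.card) * (T.card * w) := by
  have s1 : ∑ v ∈ D, (T.filter (r v)).card = T.card * k := by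
    have := sum_card_bipartiteAbove_eq_sum_card_bipartiteBelow (s := D) (t := T) r
    unfold bipartiteAbove bipartiteBelow at this
    rw [sum_congr rfl (g := fun _ => k) fun v hv => (congrArg card
      (filter_congr fun u _ => ⟨hs _ _, hs _ _⟩)).trans (hk v hv)] at this
    simpa using this
  have s2 : ∑ v ∈ D, (T.filter (r v)).card ^ 2 = T.card * w := by
    rw [← smul_eq_mul, ← sum_const, ← sum_congr rfl hw]
    simp only [card_filter, sq, sum_mul_sum]
    rw [sum_comm]
    refine sum_congr rfl fun t _ => ?_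
    rw [sum_comm]
    refine sum_congr rfl fun t' _ => sum_congr rfl fun v _ => ?_
    by_cases a : r v t <;> by_cases b : r v t' <;>
      simp [a, b, hs, show r t v ↔ r v t from ⟨hs _ _, hs _ _⟩,
        show r t' v ↔ r v t' from ⟨hs _ _, hs _ _⟩]
  rw [← sum_sdiff hT, sum_congr rfl hd] at s1
  rw [← sum_sdiff hT, sum_congr (s₁ := T) rfl (g := fun _ => d ^ 2) fun t ht => by rw [hd t ht]]
    at s2
  have cs := sq_sum_le_card_mul_sum_sq (s := D \ T) (f := fun v => (T.filter (r v)).card)
  simp only [sum_const, smul_eq_mul] at s1 s2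
  rw [card_sdiff_of_subset hT] at cs
  rw [← s2, mul_add, Nat.mul_sub, ← s1, Nat.add_sub_cancel]
  exact Nat.add_le_add_right cs _

end count

section aut

variable {V : Type*}

/-- automorphisms of a relation -/
def Aut (adj : V → V → Prop) : Subgroup (Equiv.Perm V) where
  carrier := {σ | ∀ u v, adj (σ u) (σ v) ↔ adj u v}
  one_mem' := fun _ _ => Iff.rfl
  mul_mem' := fun a b u v => (a _ _).trans (b u v)
  inv_mem' := fun {σ} a u v => by rw [← a]; simp

theorem iso_of_aut {X : Type*} [Group X] [IsSimpleGroup X] [Finite V] [MulAction X V]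
    [FaithfulSMul X V] (adj : V → V → Prop) (hX : ∀ (g : X) u v, adj (g • u) (g • v) ↔ adj u v)
    (hA : Nat.card (Aut adj) ≤ 2 * Nat.card X) (h2 : 2 < Nat.card X)
    (G : Subgroup (Equiv.Perm V)) (hG : G ≤ Aut adj) (hc : Nat.card G = Nat.card X) :
    Nonempty (G ≃* X) := by
  let ψ := toPermHom X V
  have inj : Function.Injective ψ := toPerm_injective
  have hY : ψ.range ≤ Aut adj := by rintro _ ⟨g, rfl⟩; exact hX g
  have a : G.relIndex (Aut adj) * Nat.card X = Nat.card (Aut adj) := by
    rw [← hc, ← Nat.card_congr (Subgroup.subgroupOfEquivOfLe hG).toEquiv]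
    exact Subgroup.index_mul_card _
  have a0 : G.relIndex (Aut adj) ≠ 0 := Subgroup.index_ne_zero_of_finite
  have b : (G.comap ψ).index ≤ 2 := by
    rw [Subgroup.index_comap]
    exact (Subgroup.relIndex_le_of_le_right hY a0).trans (by nlinarith)
  have : Finite X := Nat.finite_of_card_ne_zero (by omega)
  have b0 : (G.comap ψ).index ≠ 0 := Subgroup.index_ne_zero_of_finite
  have c : G.comap ψ = ⊤ := by
    by_contra hne
    have i : (G.comap ψ).index = 2 := by
      have := mt Subgroup.index_eq_one.1 hne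
      omega
    rcases (Subgroup.normal_of_index_eq_two i).eq_bot_or_eq_top with e | e
    · rw [e, Subgroup.index_bot] at i; omega
    · exact hne e
  have d : ψ.range ≤ G := by rintro _ ⟨g, rfl⟩; exact (c.ge trivial : g ∈ G.comap ψ)
  have e : ψ.range = G := Subgroup.eq_of_le_of_card_ge d
    (by rw [hc, Nat.card_congr (MonoidHom.ofInjective inj).toEquiv])
  exact ⟨(MulEquiv.subgroupCongr e.symm).trans (MonoidHom.ofInjective inj).symm⟩

theorem iso_of_aut' {X Ω : Type*} [Group X] [IsSimpleGroup X] [Finite V] [MulAction X V]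
    [FaithfulSMul X V] (adj : V → V → Prop) (hX : ∀ (g : X) u v, adj (g • u) (g • v) ↔ adj u v)
    (hA : Nat.card (Aut adj) ≤ 2 * Nat.card X) (h2 : 2 < Nat.card X)
    (G : Subgroup (Equiv.Perm Ω)) (r : Ω → Ω → Prop) (hG : G ≤ Aut r) (e : Ω ≃ V)
    (he : ∀ u v, r u v ↔ adj (e u) (e v)) (hc : Nat.card G = Nat.card X) :
    Nonempty (G ≃* X) := by
  let π := e.permCongrHom
  obtain ⟨i⟩ := iso_of_aut adj hX hA h2 (G.map π.toMonoidHom) (by
    rintro _ ⟨g, hg, rfl⟩ u v
    obtain ⟨u, rfl⟩ := e.surjective u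
    obtain ⟨v, rfl⟩ := e.surjective v
    have := hG hg u v
    rw [he, he] at this
    simpa [π] using this) (by rw [← hc]; exact Subgroup.card_map_of_injective π.injective)
  exact ⟨(π.subgroupMap G).trans i⟩

end aut

end Cfsg.H7.R3
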